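import Mathlib
import Cfsg.Agent.H88.StNDefs

/-!
# S2549-ELT (team piece for helper88)

Root elements, monomial elements and flips in the isometry group of the minus type quadratic
form, in the position coordinates of `H88/StNDefs`.
-/

set_option autoImplicit false

namespace Cfsg.Agent.H15.StN

open Matrix Cfsg.Agent.H88.StN

variable {F : Type*} [Field F]

theorem pE_ne_pF (m : ℕ) (i j : Fin m) : pE m i ≠ pF m j := by
  intro h
  have h1 := congrArg Fin.val h
  simp only [pE, pF] at h1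
  omega

theorem pE_ne_pZ (m : ℕ) (i : Fin m) (j : Fin 2) : pE m i ≠ pZ m j := by
  intro h
  have h1 := congrArg Fin.val h
  simp only [pE, pZ] at h1
  omega

theorem pF_ne_pZ (m : ℕ) (i : Fin m) (j : Fin 2) : pF m i ≠ pZ m j := by
  intro h
  have h1 := congrArg Fin.val h
  simp only [pF, pZ] at h1
  omega

theorem pE_eq_iff (m : ℕ) (i j : Fin m) : pE m i = pE m j ↔ i = j := by
  constructor
  · intro h
    have h1 := congrArg Fin.val h
    simp only [pE] at h1
    exact Fin.ext h1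
  · rintro rfl
    rfl

theorem pF_eq_iff (m : ℕ) (i j : Fin m) : pF m i = pF m j ↔ i = j := by
  constructor
  · intro h
    have h1 := congrArg Fin.val h
    simp only [pF] at h1
    apply Fin.ext
    omega
  · rintro rfl
    rfl

theorem pZ_zero_ne_one (m : ℕ) : pZ m 0 ≠ pZ m 1 := by
  intro h
  have h1 := congrArg Fin.val h
  simp [pZ] at h1

/-- Build an isometry from a linear bijection of the coordinate space preserving the form. -/
theorem exists_of_fun (m : ℕ) (a b : F)
    (T T' : (Fin (2 * m + 2) → F) → (Fin (2 * m + 2) → F))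
    (hadd : ∀ v w, T (v + w) = T v + T w) (hsmul : ∀ (c : F) v, T (c • v) = c • T v)
    (h1 : ∀ v, T (T' v) = v) (h2 : ∀ v, T' (T v) = v)
    (hQ : ∀ v, QF m a b (T v) = QF m a b v) :
    ∃ g : OGm m F a b, ∀ v, mat g *ᵥ v = T v := by
  have hadd' : ∀ v w, T' (v + w) = T' v + T' w := by
    intro v w
    have h3 := h2 (T' v + T' w)
    rw [hadd, h1, h1] at h3
    exact h3
  have hsmul' : ∀ (c : F) v, T' (c • v) = c • T' v := by
    intro c v
    have h3 := h2 (c • T' v)
    rw [hsmul, h1] at h3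
    exact h3
  obtain ⟨f, hf⟩ : ∃ f : (Fin (2 * m + 2) → F) →ₗ[F] (Fin (2 * m + 2) → F), ∀ v, f v = T v :=
    ⟨{ toFun := T, map_add' := hadd, map_smul' := hsmul }, fun _ => rfl⟩
  obtain ⟨f', hf'⟩ : ∃ f' : (Fin (2 * m + 2) → F) →ₗ[F] (Fin (2 * m + 2) → F),
      ∀ v, f' v = T' v :=
    ⟨{ toFun := T', map_add' := hadd', map_smul' := hsmul' }, fun _ => rfl⟩
  have hmv : ∀ v, LinearMap.toMatrix' f *ᵥ v = T v := by
    intro v
    rw [← Matrix.toLin'_apply, Matrix.toLin'_toMatrix', hf]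
  have hc1 : f ∘ₗ f' = LinearMap.id := by
    apply LinearMap.ext
    intro v
    rw [LinearMap.comp_apply, hf, hf', h1]
    rfl
  have hc2 : f' ∘ₗ f = LinearMap.id := by
    apply LinearMap.ext
    intro v
    rw [LinearMap.comp_apply, hf, hf', h2]
    rfl
  obtain ⟨g, hg⟩ := exists_mat (m := m) (a := a) (b := b) (LinearMap.toMatrix' f)
    (LinearMap.toMatrix' f')
    (by rw [← LinearMap.toMatrix'_comp, hc1, LinearMap.toMatrix'_id])
    (by rw [← LinearMap.toMatrix'_comp, hc2, LinearMap.toMatrix'_id])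
    (by intro v; rw [hmv]; exact hQ v)
  exact ⟨g, fun v => by rw [hg, hmv]⟩

/-- The form is unchanged if only two hyperbolic pairs are modified, compatibly. -/
theorem QF_congr2 (m : ℕ) (a b : F) (k k' : Fin m) (hkk : k ≠ k') (v w : Fin (2 * m + 2) → F)
    (hz : ∀ j, w (pZ m j) = v (pZ m j))
    (hE : ∀ i, i ≠ k → i ≠ k' → w (pE m i) = v (pE m i))
    (hF : ∀ i, i ≠ k → i ≠ k' → w (pF m i) = v (pF m i))
    (h : w (pE m k) * w (pF m k) + w (pE m k') * w (pF m k') =
      v (pE m k) * v (pF m k) + v (pE m k') * v (pF m k')) :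
    QF m a b w = QF m a b v := by
  unfold QF
  rw [hz 0, hz 1]
  congr 1
  rw [← sub_eq_zero, ← Finset.sum_sub_distrib,
    Fintype.sum_eq_add k k' hkk (fun i hi => by rw [hE i hi.1 hi.2, hF i hi.1 hi.2, sub_self])]
  linear_combination h

/-- The form is unchanged if only one hyperbolic pair and the plane are modified, compatibly. -/
theorem QF_congr1 (m : ℕ) (a b : F) (k : Fin m) (v w : Fin (2 * m + 2) → F)
    (hE : ∀ i, i ≠ k → w (pE m i) = v (pE m i))
    (hF : ∀ i, i ≠ k → w (pF m i) = v (pF m i))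
    (h : w (pE m k) * w (pF m k) +
        (w (pZ m 0) ^ 2 + a * w (pZ m 0) * w (pZ m 1) + b * w (pZ m 1) ^ 2) =
      v (pE m k) * v (pF m k) +
        (v (pZ m 0) ^ 2 + a * v (pZ m 0) * v (pZ m 1) + b * v (pZ m 1) ^ 2)) :
    QF m a b w = QF m a b v := by
  unfold QF
  have h1 : ∑ i, w (pE m i) * w (pF m i) - ∑ i, v (pE m i) * v (pF m i) =
      w (pE m k) * w (pF m k) - v (pE m k) * v (pF m k) := by
    rw [← Finset.sum_sub_distrib]
    exact Fintype.sum_eq_single k (fun i hi => by rw [hE i hi, hF i hi, sub_self])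
  linear_combination h1 + h

theorem transvection_mulVec_apply {n : ℕ} (i j : Fin n) (c : F) (v : Fin n → F) (x : Fin n) :
    (transvection i j c *ᵥ v) x = if x = i then v x + c * v j else v x := by
  rw [transvection, Matrix.add_mulVec, Matrix.one_mulVec, Matrix.single_mulVec, Pi.add_apply,
    Function.update_apply]
  split_ifs with h
  · rfl
  · simp

theorem exists_xshort (m : ℕ) (a b : F) (k : Fin m) (hk : k.val + 1 < m) (t : F) :
    ∃ g : OGm m F a b, mat g = transvection (pE m k) (pE m ⟨k.val + 1, hk⟩) t *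
      transvection (pF m ⟨k.val + 1, hk⟩) (pF m k) (-t) := by
  have hkk : k ≠ (⟨k.val + 1, hk⟩ : Fin m) := by
    intro h
    have h1 := congrArg Fin.val h
    simp at h1
  have hne1 : pE m k ≠ pE m ⟨k.val + 1, hk⟩ := fun h => hkk ((pE_eq_iff m _ _).mp h)
  have hne2 : pF m ⟨k.val + 1, hk⟩ ≠ pF m k := fun h => hkk ((pF_eq_iff m _ _).mp h).symm
  refine exists_mat _ (transvection (pF m ⟨k.val + 1, hk⟩) (pF m k) t *
      transvection (pE m k) (pE m ⟨k.val + 1, hk⟩) (-t)) ?_ ?_ ?_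
  · rw [Matrix.mul_assoc, ← Matrix.mul_assoc (transvection (pF m ⟨k.val + 1, hk⟩) (pF m k) (-t)),
      transvection_mul_transvection_same _ _ hne2, neg_add_cancel, transvection_zero, Matrix.one_mul,
      transvection_mul_transvection_same _ _ hne1, add_neg_cancel, transvection_zero]
  · rw [Matrix.mul_assoc, ← Matrix.mul_assoc (transvection (pE m k) (pE m ⟨k.val + 1, hk⟩) (-t)),
      transvection_mul_transvection_same _ _ hne1, neg_add_cancel, transvection_zero, Matrix.one_mul,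
      transvection_mul_transvection_same _ _ hne2, add_neg_cancel, transvection_zero]
  · intro v
    rw [← Matrix.mulVec_mulVec]
    refine QF_congr2 m a b k ⟨k.val + 1, hk⟩ hkk v _ ?_ ?_ ?_ ?_
    · intro j
      rw [transvection_mulVec_apply, if_neg (pE_ne_pZ m _ _).symm, transvection_mulVec_apply,
        if_neg (pF_ne_pZ m _ _).symm]
    · intro i hi _
      rw [transvection_mulVec_apply, if_neg (fun h => hi ((pE_eq_iff m _ _).mp h)),
        transvection_mulVec_apply, if_neg (pE_ne_pF m _ _)]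
    · intro i _ hi
      rw [transvection_mulVec_apply, if_neg (pE_ne_pF m _ _).symm, transvection_mulVec_apply,
        if_neg (fun h => hi ((pF_eq_iff m _ _).mp h))]
    · rw [transvection_mulVec_apply, if_pos rfl, transvection_mulVec_apply,
        if_neg (pE_ne_pF m _ _), transvection_mulVec_apply (pF m ⟨k.val + 1, hk⟩) (pF m k) (-t) v
          (pE m ⟨k.val + 1, hk⟩), if_neg (pE_ne_pF m _ _),
        transvection_mulVec_apply (pE m k) _ t _ (pF m k), if_neg (pE_ne_pF m _ _).symm,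
        transvection_mulVec_apply _ _ _ v (pF m k), if_neg hne2.symm,
        transvection_mulVec_apply (pE m k) _ t _ (pE m ⟨k.val + 1, hk⟩), if_neg hne1.symm,
        transvection_mulVec_apply _ _ _ v (pE m ⟨k.val + 1, hk⟩), if_neg (pE_ne_pF m _ _),
        transvection_mulVec_apply (pE m k) _ t _ (pF m ⟨k.val + 1, hk⟩),
        if_neg (pE_ne_pF m _ _).symm,
        transvection_mulVec_apply _ _ _ v (pF m ⟨k.val + 1, hk⟩), if_pos rfl]
      ring

theorem exists_nshort (m : ℕ) (a b : F) (k : Fin m) (hk : k.val + 1 < m) :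
    ∃ g : OGm m F a b, ∀ (v : Fin (2 * m + 2) → F) (c : Fin (2 * m + 2)), (mat g *ᵥ v) c =
      if c = pE m k then v (pE m ⟨k.val + 1, hk⟩) else if c = pE m ⟨k.val + 1, hk⟩ then
        - v (pE m k) else if c = pF m ⟨k.val + 1, hk⟩ then - v (pF m k) else if c = pF m k then
        v (pF m ⟨k.val + 1, hk⟩) else v c := by
  have hkk : k ≠ (⟨k.val + 1, hk⟩ : Fin m) := by
    intro h
    have h1 := congrArg Fin.val h
    simp at h1
  have hne1 : pE m k ≠ pE m ⟨k.val + 1, hk⟩ := fun h => hkk ((pE_eq_iff m _ _).mp h)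
  have hne2 : pF m ⟨k.val + 1, hk⟩ ≠ pF m k := fun h => hkk ((pF_eq_iff m _ _).mp h).symm
  have hne3 : pE m k ≠ pF m k := pE_ne_pF m _ _
  have hne4 : pE m k ≠ pF m ⟨k.val + 1, hk⟩ := pE_ne_pF m _ _
  have hne5 : pE m ⟨k.val + 1, hk⟩ ≠ pF m k := pE_ne_pF m _ _
  have hne6 : pE m ⟨k.val + 1, hk⟩ ≠ pF m ⟨k.val + 1, hk⟩ := pE_ne_pF m _ _
  obtain ⟨T, hT⟩ : ∃ T : (Fin (2 * m + 2) → F) → (Fin (2 * m + 2) → F), ∀ v c, T v c =
      if c = pE m k then v (pE m ⟨k.val + 1, hk⟩) else if c = pE m ⟨k.val + 1, hk⟩ then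
        - v (pE m k) else if c = pF m ⟨k.val + 1, hk⟩ then - v (pF m k) else if c = pF m k then
        v (pF m ⟨k.val + 1, hk⟩) else v c := ⟨_, fun _ _ => rfl⟩
  obtain ⟨T', hT'⟩ : ∃ T' : (Fin (2 * m + 2) → F) → (Fin (2 * m + 2) → F), ∀ v c, T' v c =
      if c = pE m k then - v (pE m ⟨k.val + 1, hk⟩) else if c = pE m ⟨k.val + 1, hk⟩ then
        v (pE m k) else if c = pF m ⟨k.val + 1, hk⟩ then v (pF m k) else if c = pF m k then
        - v (pF m ⟨k.val + 1, hk⟩) else v c := ⟨_, fun _ _ => rfl⟩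
  suffices key : ∃ g : OGm m F a b, ∀ v, mat g *ᵥ v = T v by
    obtain ⟨g, hg⟩ := key
    exact ⟨g, fun v c => by rw [hg, hT]⟩
  apply exists_of_fun m a b T T'
  · intro v w
    funext c
    simp only [hT, Pi.add_apply]
    split_ifs <;> ring
  · intro x v
    funext c
    simp only [hT, Pi.smul_apply, smul_eq_mul]
    split_ifs <;> ring
  · intro v
    funext c
    rw [hT]
    by_cases h1 : c = pE m k
    · subst h1
      rw [if_pos rfl, hT', if_neg hne1.symm, if_pos rfl]
    · rw [if_neg h1]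
      by_cases h2 : c = pE m ⟨k.val + 1, hk⟩
      · subst h2
        rw [if_pos rfl, hT', if_pos rfl, neg_neg]
      · rw [if_neg h2]
        by_cases h3 : c = pF m ⟨k.val + 1, hk⟩
        · subst h3
          rw [if_pos rfl, hT', if_neg hne3.symm, if_neg hne5.symm, if_neg hne2.symm, if_pos rfl,
            neg_neg]
        · rw [if_neg h3]
          by_cases h4 : c = pF m k
          · subst h4
            rw [if_pos rfl, hT', if_neg hne4.symm, if_neg hne6.symm, if_pos rfl]
          · rw [if_neg h4, hT', if_neg h1, if_neg h2, if_neg h3, if_neg h4]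
  · intro v
    funext c
    rw [hT']
    by_cases h1 : c = pE m k
    · subst h1
      rw [if_pos rfl, hT, if_neg hne1.symm, if_pos rfl, neg_neg]
    · rw [if_neg h1]
      by_cases h2 : c = pE m ⟨k.val + 1, hk⟩
      · subst h2
        rw [if_pos rfl, hT, if_pos rfl]
      · rw [if_neg h2]
        by_cases h3 : c = pF m ⟨k.val + 1, hk⟩
        · subst h3
          rw [if_pos rfl, hT, if_neg hne3.symm, if_neg hne5.symm, if_neg hne2.symm, if_pos rfl]
        · rw [if_neg h3]
          by_cases h4 : c = pF m k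
          · subst h4
            rw [if_pos rfl, hT, if_neg hne4.symm, if_neg hne6.symm, if_pos rfl, neg_neg]
          · rw [if_neg h4, hT, if_neg h1, if_neg h2, if_neg h3, if_neg h4]
  · intro v
    refine QF_congr2 m a b k ⟨k.val + 1, hk⟩ hkk v _ ?_ ?_ ?_ ?_
    · intro j
      rw [hT, if_neg (pE_ne_pZ m _ _).symm, if_neg (pE_ne_pZ m _ _).symm,
        if_neg (pF_ne_pZ m _ _).symm, if_neg (pF_ne_pZ m _ _).symm]
    · intro i hi hi'
      rw [hT, if_neg (fun h => hi ((pE_eq_iff m _ _).mp h)),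
        if_neg (fun h => hi' ((pE_eq_iff m _ _).mp h)), if_neg (pE_ne_pF m _ _),
        if_neg (pE_ne_pF m _ _)]
    · intro i hi hi'
      rw [hT, if_neg (pE_ne_pF m _ _).symm, if_neg (pE_ne_pF m _ _).symm,
        if_neg (fun h => hi' ((pF_eq_iff m _ _).mp h)),
        if_neg (fun h => hi ((pF_eq_iff m _ _).mp h))]
    · rw [hT, if_pos rfl, hT, if_neg hne3.symm, if_neg hne5.symm, if_neg hne2.symm, if_pos rfl,
        hT, if_neg hne1.symm, if_pos rfl, hT, if_neg hne4.symm, if_neg hne6.symm, if_pos rfl]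
      ring

theorem exists_xtw (m : ℕ) (a b : F) (k : Fin m) (c1 c2 : F) :
    ∃ g : OGm m F a b, ∀ (v : Fin (2 * m + 2) → F) (c : Fin (2 * m + 2)), (mat g *ᵥ v) c =
      if c = pE m k then v (pE m k) - (c1 * (2 * v (pZ m 0) + a * v (pZ m 1)) +
        c2 * (a * v (pZ m 0) + 2 * b * v (pZ m 1))) -
        (c1 ^ 2 + a * c1 * c2 + b * c2 ^ 2) * v (pF m k) else if c = pZ m 0 then
        v (pZ m 0) + c1 * v (pF m k) else if c = pZ m 1 then v (pZ m 1) + c2 * v (pF m k)
        else v c := by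
  have hne1 : pE m k ≠ pZ m 0 := pE_ne_pZ m _ _
  have hne2 : pE m k ≠ pZ m 1 := pE_ne_pZ m _ _
  have hne3 : pE m k ≠ pF m k := pE_ne_pF m _ _
  have hne4 : pF m k ≠ pZ m 0 := pF_ne_pZ m _ _
  have hne5 : pF m k ≠ pZ m 1 := pF_ne_pZ m _ _
  have hne6 : pZ m 0 ≠ pZ m 1 := pZ_zero_ne_one m
  obtain ⟨T, hT⟩ : ∃ T : F → F → (Fin (2 * m + 2) → F) → (Fin (2 * m + 2) → F),
      ∀ d1 d2 v c, T d1 d2 v c =
      if c = pE m k then v (pE m k) - (d1 * (2 * v (pZ m 0) + a * v (pZ m 1)) +
        d2 * (a * v (pZ m 0) + 2 * b * v (pZ m 1))) -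
        (d1 ^ 2 + a * d1 * d2 + b * d2 ^ 2) * v (pF m k) else if c = pZ m 0 then
        v (pZ m 0) + d1 * v (pF m k) else if c = pZ m 1 then v (pZ m 1) + d2 * v (pF m k)
        else v c := ⟨_, fun _ _ _ _ => rfl⟩
  have hinv : ∀ d1 d2 v, T d1 d2 (T (-d1) (-d2) v) = v := by
    intro d1 d2 v
    funext c
    rw [hT]
    by_cases h1 : c = pE m k
    · subst h1
      rw [if_pos rfl, hT, if_pos rfl, hT (-d1) (-d2) v (pZ m 0), if_neg hne1.symm, if_pos rfl,
        hT (-d1) (-d2) v (pZ m 1), if_neg hne2.symm, if_neg hne6.symm, if_pos rfl,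
        hT (-d1) (-d2) v (pF m k), if_neg hne3.symm, if_neg hne4, if_neg hne5]
      ring
    · rw [if_neg h1]
      by_cases h2 : c = pZ m 0
      · subst h2
        rw [if_pos rfl, hT, if_neg hne1.symm, if_pos rfl, hT (-d1) (-d2) v (pF m k),
          if_neg hne3.symm, if_neg hne4, if_neg hne5]
        ring
      · rw [if_neg h2]
        by_cases h3 : c = pZ m 1
        · subst h3
          rw [if_pos rfl, hT, if_neg hne2.symm, if_neg hne6.symm, if_pos rfl,
            hT (-d1) (-d2) v (pF m k), if_neg hne3.symm, if_neg hne4, if_neg hne5]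
          ring
        · rw [if_neg h3, hT, if_neg h1, if_neg h2, if_neg h3]
  suffices key : ∃ g : OGm m F a b, ∀ v, mat g *ᵥ v = T c1 c2 v by
    obtain ⟨g, hg⟩ := key
    exact ⟨g, fun v c => by rw [hg, hT]⟩
  apply exists_of_fun m a b (T c1 c2) (T (-c1) (-c2))
  rotate_left 2
  · exact hinv c1 c2
  rotate_right 2
  · intro v w
    funext c
    simp only [hT, Pi.add_apply]
    split_ifs <;> ring
  · intro x v
    funext c
    simp only [hT, Pi.smul_apply, smul_eq_mul]
    split_ifs <;> ring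
  · intro v
    have h := hinv (-c1) (-c2) v
    rw [neg_neg, neg_neg] at h
    exact h
  · intro v
    refine QF_congr1 m a b k v _ ?_ ?_ ?_
    · intro i hi
      rw [hT, if_neg (fun h => hi ((pE_eq_iff m _ _).mp h)), if_neg (pE_ne_pZ m _ _),
        if_neg (pE_ne_pZ m _ _)]
    · intro i hi
      rw [hT, if_neg (pE_ne_pF m _ _).symm, if_neg (pF_ne_pZ m _ _), if_neg (pF_ne_pZ m _ _)]
    · rw [hT, if_pos rfl, hT c1 c2 v (pZ m 0), if_neg hne1.symm, if_pos rfl,
        hT c1 c2 v (pZ m 1), if_neg hne2.symm, if_neg hne6.symm, if_pos rfl,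
        hT c1 c2 v (pF m k), if_neg hne3.symm, if_neg hne4, if_neg hne5]
      ring

theorem exists_flip (m : ℕ) (a b : F) (k : Fin m) :
    ∃ g : OGm m F a b, ∀ (v : Fin (2 * m + 2) → F) (c : Fin (2 * m + 2)),
      (mat g *ᵥ v) c = v (Equiv.swap (pE m k) (pF m k) c) := by
  suffices key : ∃ g : OGm m F a b, ∀ v, mat g *ᵥ v =
      (fun (v : Fin (2 * m + 2) → F) c => v (Equiv.swap (pE m k) (pF m k) c)) v by
    obtain ⟨g, hg⟩ := key
    exact ⟨g, fun v c => by rw [hg]⟩
  apply exists_of_fun m a b (fun v c => v (Equiv.swap (pE m k) (pF m k) c))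
    (fun v c => v (Equiv.swap (pE m k) (pF m k) c))
  · intro v w
    rfl
  · intro x v
    rfl
  · intro v
    funext c
    simp only [Equiv.swap_apply_self]
  · intro v
    funext c
    simp only [Equiv.swap_apply_self]
  · intro v
    refine QF_congr1 m a b k v _ ?_ ?_ ?_
    · intro i hi
      show v (Equiv.swap (pE m k) (pF m k) (pE m i)) = v (pE m i)
      rw [Equiv.swap_apply_of_ne_of_ne (fun h => hi ((pE_eq_iff m _ _).mp h)) (pE_ne_pF m _ _)]
    · intro i hi
      show v (Equiv.swap (pE m k) (pF m k) (pF m i)) = v (pF m i)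
      rw [Equiv.swap_apply_of_ne_of_ne (pE_ne_pF m _ _).symm
        (fun h => hi ((pF_eq_iff m _ _).mp h))]
    · show v (Equiv.swap (pE m k) (pF m k) (pE m k)) * v (Equiv.swap (pE m k) (pF m k) (pF m k)) +
        (v (Equiv.swap (pE m k) (pF m k) (pZ m 0)) ^ 2 +
          a * v (Equiv.swap (pE m k) (pF m k) (pZ m 0)) *
            v (Equiv.swap (pE m k) (pF m k) (pZ m 1)) +
          b * v (Equiv.swap (pE m k) (pF m k) (pZ m 1)) ^ 2) = _
      rw [Equiv.swap_apply_left, Equiv.swap_apply_right,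
        Equiv.swap_apply_of_ne_of_ne (pE_ne_pZ m _ _).symm (pF_ne_pZ m _ _).symm,
        Equiv.swap_apply_of_ne_of_ne (pE_ne_pZ m _ _).symm (pF_ne_pZ m _ _).symm]
      ring

end Cfsg.Agent.H15.StN

section verbatim
open Matrix Cfsg.Agent.H88.StN
variable {F : Type*} [Field F]
example (m : ℕ) (a b : F) (k : Fin m) (hk : k.val + 1 < m) (t : F) : ∃ g : OGm m F a b, mat g = transvection (pE m k) (pE m ⟨k.val + 1, hk⟩) t * transvection (pF m ⟨k.val + 1, hk⟩) (pF m k) (-t) := Cfsg.Agent.H15.StN.exists_xshort m a b k hk t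
example (m : ℕ) (a b : F) (k : Fin m) (hk : k.val + 1 < m) : ∃ g : OGm m F a b, ∀ (v : Fin (2 * m + 2) → F) (c : Fin (2 * m + 2)), (mat g *ᵥ v) c = if c = pE m k then v (pE m ⟨k.val + 1, hk⟩) else if c = pE m ⟨k.val + 1, hk⟩ then - v (pE m k) else if c = pF m ⟨k.val + 1, hk⟩ then - v (pF m k) else if c = pF m k then v (pF m ⟨k.val + 1, hk⟩) else v c := Cfsg.Agent.H15.StN.exists_nshort m a b k hk
example (m : ℕ) (a b : F) (k : Fin m) (c1 c2 : F) : ∃ g : OGm m F a b, ∀ (v : Fin (2 * m + 2) → F) (c : Fin (2 * m + 2)), (mat g *ᵥ v) c = if c = pE m k then v (pE m k) - (c1 * (2 * v (pZ m 0) + a * v (pZ m 1)) + c2 * (a * v (pZ m 0) + 2 * b * v (pZ m 1))) - (c1 ^ 2 + a * c1 * c2 + b * c2 ^ 2) * v (pF m k) else if c = pZ m 0 then v (pZ m 0) + c1 * v (pF m k) else if c = pZ m 1 then v (pZ m 1) + c2 * v (pF m k) else v c := Cfsg.Agent.H15.StN.exists_xtw m a b k c1 c2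
example (m : ℕ) (a b : F) (k : Fin m) : ∃ g : OGm m F a b, ∀ (v : Fin (2 * m + 2) → F) (c : Fin (2 * m + 2)), (mat g *ᵥ v) c = v (Equiv.swap (pE m k) (pF m k) c) := Cfsg.Agent.H15.StN.exists_flip m a b k
end verbatim
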