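import Mathlib
import Cfsg.Agent.H74.WielandtB
import Cfsg.Agent.H74.Miller
import Cfsg.Agent.S3975

/-!
# Kulakoff's theorem and its analogue for `p = 2`

The number of subgroups of order `p ^ k` of a noncyclic `p`-group (not a `2`-group of maximal
class) is `≡ 1 + p` modulo `p ^ 2`.
-/

set_option autoImplicit false

universe u

namespace Cfsg.Agent.H15

open Subgroup Cfsg.Agent.H74.Mil

/-- Miller's counting argument in an abstract form: if `E` is a normal subgroup of order `p ^ 2`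
and exponent `p` with `(x e) ^ (p ^ (n + 1)) = x ^ (p ^ (n + 1))`, then the number of cyclic
subgroups of order `p ^ (n + 2)` is divisible by `p`. -/
theorem kk_miller {p : ℕ} [hp : Fact p.Prime] {W : Type u} [Group W] [Finite W]
    (E : Subgroup W) [hEn : E.Normal] (hEp : ∀ e ∈ E, e ^ p = 1) (hEcard : Nat.card E = p ^ 2)
    (n : ℕ) (hmp : ∀ x : W, ∀ e ∈ E, (x * e) ^ p ^ (n + 1) = x ^ p ^ (n + 1)) :
    p ∣ Nat.card {C : Subgroup W // IsCyclic C ∧ Nat.card C = p ^ (n + 2)} := by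
  have hord : ∀ x : W, ∀ e ∈ E, orderOf x = p ^ (n + 2) → orderOf (x * e) = p ^ (n + 2) := by
    intro x e he hx
    have h1 : x ^ p ^ (n + 1) ≠ 1 := by
      intro h
      have h2 := orderOf_dvd_of_pow_eq_one h
      rw [hx] at h2
      have h3 := (Nat.pow_dvd_pow_iff_le_right hp.out.one_lt).1 h2
      omega
    refine orderOf_eq_prime_pow (n := n + 1) ?_ ?_
    · rw [hmp x e he]; exact h1
    · rw [pow_succ, pow_mul, hmp x e he, ← pow_mul, ← pow_succ, ← hx]
      exact pow_orderOf_eq_one x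
  let r : {C : Subgroup W // IsCyclic C ∧ Nat.card C = p ^ (n + 2)} → Subgroup W :=
    fun C => C.1 ⊔ E
  apply dvd_card_of_fibers r p
  intro D
  by_cases hne : Nonempty {a : {C : Subgroup W // IsCyclic C ∧ Nat.card C = p ^ (n + 2)} // r a = D}
  swap
  · rw [not_nonempty_iff] at hne
    simp
  obtain ⟨⟨⟨C₀, hC₀cyc, hC₀card⟩, hC₀D⟩⟩ := hne
  obtain ⟨x₀, rfl⟩ := exists_zpowers_eq C₀ hC₀cyc
  have hx₀ : orderOf x₀ = p ^ (n + 2) := by rw [← Nat.card_zpowers]; exact hC₀card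
  have hD : zpowers x₀ ⊔ E = D := hC₀D
  let K : Subgroup E := (zpowers (x₀ ^ p ^ (n + 1)) ⊓ E).subgroupOf E
  have hsupeq : ∀ e ∈ E, zpowers (x₀ * e) ⊔ E = D := by
    intro e he
    rw [← hD]
    apply le_antisymm
    · exact sup_le (zpowers_le.2 (mul_mem (mem_sup_left (mem_zpowers x₀)) (mem_sup_right he)))
        le_sup_right
    · refine sup_le (zpowers_le.2 ?_) le_sup_right
      have hx : (x₀ * e) * e⁻¹ ∈ zpowers (x₀ * e) ⊔ E :=
        mul_mem (mem_sup_left (mem_zpowers _)) (mem_sup_right (inv_mem he))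
      simpa using hx
  let ψ : E → {a : {C : Subgroup W // IsCyclic C ∧ Nat.card C = p ^ (n + 2)} // r a = D} :=
    fun e => ⟨⟨zpowers (x₀ * (e : W)), inferInstance, by
      rw [Nat.card_zpowers]; exact hord x₀ e e.2 hx₀⟩, hsupeq e e.2⟩
  have hcardeq : ∀ e ∈ E, ∀ y : W, y ∈ zpowers (x₀ * e) → orderOf y = p ^ (n + 2) →
      zpowers y = zpowers (x₀ * e) := by
    intro e he y hy hyo
    apply Subgroup.eq_of_le_of_card_ge (zpowers_le.2 hy)
    rw [Nat.card_zpowers, Nat.card_zpowers, hyo, hord x₀ e he hx₀]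
  have hker : ∀ a b : E, ψ a = ψ b ↔ a⁻¹ * b ∈ K := by
    intro a b
    have h1 : ψ a = ψ b ↔ zpowers (x₀ * (a : W)) = zpowers (x₀ * (b : W)) := by
      simp only [ψ, Subtype.mk.injEq]
    rw [h1, Subgroup.mem_subgroupOf, Subgroup.mem_inf]
    have hf : (x₀ * (a : W))⁻¹ * (x₀ * (b : W)) = ((a⁻¹ * b : E) : W) := by
      push_cast; group
    have hpw : (x₀ * (a : W)) ^ p ^ (n + 1) = x₀ ^ p ^ (n + 1) := hmp x₀ a a.2
    constructor
    · intro h
      have h2 : ((a⁻¹ * b : E) : W) ∈ zpowers (x₀ * (a : W)) := by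
        rw [← hf]
        exact mul_mem (inv_mem (mem_zpowers _)) (h ▸ mem_zpowers _)
      have h3 := mem_zpowers_pow_of_pow_eq_one (x₀ * (a : W)) ((a⁻¹ * b : E) : W) (n + 2) (by omega)
        (hord x₀ a a.2 hx₀) h2 (hEp _ (a⁻¹ * b).2)
      rw [show n + 2 - 1 = n + 1 by omega, hpw] at h3
      exact ⟨h3, (a⁻¹ * b).2⟩
    · rintro ⟨h, -⟩
      rw [← hpw] at h
      have h2 : ((a⁻¹ * b : E) : W) ∈ zpowers (x₀ * (a : W)) :=
        (zpowers_le.2 (pow_mem (mem_zpowers _) _)) h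
      have h3 : x₀ * (b : W) ∈ zpowers (x₀ * (a : W)) := by
        have : x₀ * (b : W) = (x₀ * (a : W)) * ((a⁻¹ * b : E) : W) := by push_cast; group
        rw [this]
        exact mul_mem (mem_zpowers _) h2
      exact (hcardeq a a.2 _ h3 (hord x₀ b b.2 hx₀)).symm
  have hsurj : Function.Surjective ψ := by
    rintro ⟨⟨C, hCcyc, hCcard⟩, hCD⟩
    obtain ⟨y, rfl⟩ := exists_zpowers_eq C hCcyc
    have hy : orderOf y = p ^ (n + 2) := by rw [← Nat.card_zpowers]; exact hCcard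
    have hyD : y ∈ zpowers x₀ ⊔ E := by
      rw [hD]
      have : zpowers y ⊔ E = D := hCD
      rw [← this]; exact mem_sup_left (mem_zpowers y)
    have hyD' : y ∈ ((zpowers x₀ ⊔ E : Subgroup W) : Set W) := hyD
    rw [Subgroup.mul_normal] at hyD'
    obtain ⟨h, hh, e₁, he₁, rfl⟩ := Set.mem_mul.1 hyD'
    obtain ⟨a, rfl⟩ := (mem_powers_iff_mem_zpowers).2 hh
    have hpa : ¬ p ∣ a := by
      rintro ⟨b, rfl⟩
      have h1 : (x₀ ^ (p * b) * e₁) ^ p ^ (n + 1) = 1 := by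
        rw [hmp (x₀ ^ (p * b)) e₁ he₁, ← pow_mul, mul_comm p b, mul_assoc, ← pow_succ',
          mul_comm, pow_mul, ← hx₀, pow_orderOf_eq_one, one_pow]
      have h2 := orderOf_dvd_of_pow_eq_one h1
      rw [hy] at h2
      have h3 := (Nat.pow_dvd_pow_iff_le_right hp.out.one_lt).1 h2
      omega
    have hcop : Nat.Coprime a (p ^ (n + 2)) :=
      Nat.Coprime.pow_right _ ((Nat.Prime.coprime_iff_not_dvd hp.out).2 hpa).symm
    obtain ⟨b, -, hb⟩ := Nat.exists_mul_mod_eq_one_of_coprime hcop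
      (Nat.one_lt_pow (by omega) hp.out.one_lt)
    obtain ⟨e₂, he₂, h4⟩ := pow_mul_mem E (x₀ ^ a) e₁ he₁ b
    have h5 : (x₀ ^ a) ^ b = x₀ := by
      rw [← pow_mul, ← pow_mod_orderOf, hx₀, hb, pow_one]
    rw [h5] at h4
    refine ⟨⟨e₂, he₂⟩, ?_⟩
    apply Subtype.ext
    apply Subtype.ext
    show zpowers (x₀ * e₂) = zpowers (x₀ ^ a * e₁)
    rw [← h4]
    apply Subgroup.eq_of_le_of_card_ge (zpowers_le.2 (pow_mem (mem_zpowers _) _))
    rw [Nat.card_zpowers, Nat.card_zpowers, hy, h4, hord x₀ e₂ he₂ hx₀]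
  rw [card_eq_index_of_surj K ψ hsurj hker]
  have hK1 : Nat.card K ∣ p := by
    have h1 : Nat.card K = Nat.card (zpowers (x₀ ^ p ^ (n + 1)) ⊓ E : Subgroup W) :=
      Nat.card_congr (Subgroup.subgroupOfEquivOfLe inf_le_right).toEquiv
    rw [h1]
    have h2 : Nat.card (zpowers (x₀ ^ p ^ (n + 1))) = p := by
      rw [Nat.card_zpowers, orderOf_pow, hx₀, Nat.gcd_eq_right (pow_dvd_pow p (by omega)),
        Nat.pow_div (by omega) hp.out.pos, show n + 2 - (n + 1) = 1 by omega, pow_one]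
    have h3 := Subgroup.card_dvd_of_le
      (inf_le_left : zpowers (x₀ ^ p ^ (n + 1)) ⊓ E ≤ zpowers (x₀ ^ p ^ (n + 1)))
    rwa [h2] at h3
  have hK2 : Nat.card K * K.index = p ^ 2 := by rw [Subgroup.card_mul_index, hEcard]
  rcases (Nat.dvd_prime hp.out).1 hK1 with h | h
  · rw [h, one_mul] at hK2
    rw [hK2]; exact dvd_pow_self p (by norm_num)
  · rw [h, pow_two] at hK2
    have := Nat.eq_of_mul_eq_mul_left hp.out.pos hK2
    rw [this]

/-- Reduction: if the number of cyclic subgroups of order `p ^ (k + 1)` is divisible by `p`,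
the number of subgroups of order `p ^ k` is `≡ 1 + p` modulo `p ^ 2`. -/
theorem kk_reduce {G : Type u} [Group G] [Finite G] (p k : ℕ) [hp : Fact p.Prime]
    (hdvd : p ^ (k + 1) ∣ Nat.card G)
    (hc : p ∣ Nat.card {C : Subgroup G // IsCyclic C ∧ Nat.card C = p ^ (k + 1)}) :
    Nat.card {H : Subgroup G // Nat.card H = p ^ k} ≡ 1 + p [MOD p ^ 2] := by
  have h1 := Cfsg.Agent.H74.Wie.card_modEq_nc (G := G) p k hdvd
  have h2 := Cfsg.Agent.H74.Wie.card_subtype_add_card_not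
    (fun T : {T : Subgroup G // Nat.card T = p ^ (k + 1)} => IsCyclic T.1)
  have h3 : Nat.card {T : {T : Subgroup G // Nat.card T = p ^ (k + 1)} // IsCyclic T.1} =
      Nat.card {C : Subgroup G // IsCyclic C ∧ Nat.card C = p ^ (k + 1)} :=
    Nat.card_congr ((Equiv.subtypeSubtypeEquivSubtypeInter
      (fun T : Subgroup G => Nat.card T = p ^ (k + 1)) (fun T => IsCyclic T)).trans
      (Equiv.subtypeEquivRight (fun C => and_comm)))
  have h4 := Cfsg.Agent.S3975.result (G := G) p (k + 1) hp.out hdvd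
  rw [← h2, h3] at h4
  have h5 : Nat.card {C : Subgroup G // IsCyclic C ∧ Nat.card C = p ^ (k + 1)} ≡ 0 [MOD p] :=
    (Nat.modEq_zero_iff_dvd).2 hc
  have h6 : Nat.card {T : {T : Subgroup G // Nat.card T = p ^ (k + 1)} // ¬ IsCyclic T.1} ≡ 1
      [MOD p] := by
    have := (h5.add_right _).symm.trans h4
    simpa using this
  have h7 := Nat.ModEq.mul_left' p h6
  rw [mul_one, ← pow_two] at h7
  exact h1.trans (h7.add_left 1)

/-- Kulakoff's theorem for odd `p`. -/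
theorem kk_odd {G : Type u} [Group G] [Finite G] {p : ℕ} [hp : Fact p.Prime] (hp2 : p ≠ 2)
    (m : ℕ) (hG : Nat.card G = p ^ m) (hnc : ¬ IsCyclic G) (k : ℕ) (hk1 : 1 ≤ k) (hk2 : k < m) :
    Nat.card {H : Subgroup G // Nat.card H = p ^ k} ≡ 1 + p [MOD p ^ 2] := by
  refine kk_reduce p k (by rw [hG]; exact pow_dvd_pow p (by omega)) ?_
  exact miller hp2 (IsPGroup.of_card hG) hnc (k + 1) (by omega)

end Cfsg.Agent.H15
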