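import Mathlib
import Cfsg.Agent.H15.Kulakoff
import Cfsg.Agent.H25.NormFour
import Cfsg.Agent.H11.AbNormalCyclic
import Cfsg.Agent.H3.MaxClass2

/-!
# Kulakoff's theorem for `p = 2`: auxiliary results

A noncyclic `2`-group in which every normal abelian subgroup is cyclic is of maximal class.
-/

set_option autoImplicit false

universe u

namespace Cfsg.Agent.H15

open Subgroup

/-- A four-element set `{1, x, y, x * y}`. -/
theorem kk_ncard_four {W : Type u} [Group W] {x y : W} (hx : x ≠ 1) (hy : y ≠ 1) (hxy : x ≠ y)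
    (hxy1 : x * y ≠ 1) : ({1, x, y, x * y} : Set W).ncard = 4 := by
  have h1 : y ≠ x * y := fun h => hx (by
    have : 1 * y = x * y := by rw [one_mul]; exact h
    exact (mul_right_cancel this).symm)
  have h2 : x ≠ x * y := fun h => hy (by
    have : x * 1 = x * y := by rw [mul_one]; exact h
    exact (mul_left_cancel this).symm)
  rw [Set.ncard_insert_of_notMem, Set.ncard_insert_of_notMem, Set.ncard_pair h1]
  · simp only [Set.mem_insert_iff, Set.mem_singleton_iff, not_or]
    exact ⟨hxy, h2⟩
  · simp only [Set.mem_insert_iff, Set.mem_singleton_iff, not_or]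
    exact ⟨fun h => hx h.symm, fun h => hy h.symm, fun h => hxy1 h.symm⟩

/-- A noncyclic `2`-group all of whose normal abelian subgroups are cyclic has maximal class. -/
theorem kk_maxclass {P : Type u} [Group P] [Finite P] (m : ℕ) (hG : Nat.card P = 2 ^ m)
    (hn : ∀ A : Subgroup P, A.Normal → IsMulCommutative A → IsCyclic A) (hnc : ¬ IsCyclic P) :
    Group.nilpotencyClass P = m - 1 := by
  haveI : Fact (Nat.Prime 2) := ⟨Nat.prime_two⟩
  have hP : IsPGroup 2 P := IsPGroup.of_card hG
  obtain ⟨A, hAn, hAc, hmax⟩ := Cfsg.Agent.H11.exists_max_normal_abelian P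
  have hAcyc : IsCyclic A := hn A hAn hAc
  haveI : A.Normal := hAn
  haveI : IsMulCommutative A := hAc
  haveI : Group.IsNilpotent P := hP.isNilpotent
  have hCA : Subgroup.centralizer (A : Set P) = A := Cfsg.Agent.S0015.result A hmax
  obtain ⟨⟨a, haA⟩, hgen⟩ := hAcyc.exists_generator
  have hAeq : Subgroup.zpowers a = A := by
    apply le_antisymm (Subgroup.zpowers_le.mpr haA)
    intro x hx
    obtain ⟨i, hi⟩ := Subgroup.mem_zpowers_iff.mp (hgen ⟨x, hx⟩)
    have := congrArg Subtype.val hi
    rw [Subgroup.mem_zpowers_iff]; exact ⟨i, by simpa using this⟩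
  obtain ⟨k, hk⟩ : ∃ k, orderOf a = 2 ^ k := (IsPGroup.iff_orderOf (p := 2)).1 hP a
  have hnorm : ∀ g : P, g * a * g⁻¹ ∈ Subgroup.zpowers a := by
    intro g; rw [hAeq]; exact hAn.conj_mem a haA g
  have hcent : ∀ g : P, g * a = a * g → g ∈ Subgroup.zpowers a := by
    intro g hg
    rw [hAeq, ← hCA, Subgroup.mem_centralizer_iff]
    intro x hx
    have hx' : x ∈ Subgroup.zpowers a := by rw [hAeq]; exact hx
    obtain ⟨i, rfl⟩ := Subgroup.mem_zpowers_iff.mp hx'
    exact ((Commute.zpow_right (show Commute g a from hg) i)).eq.symm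
  have hAtop : ∃ h : P, h ∉ Subgroup.zpowers a := by
    by_contra hcon
    apply hnc
    have : ∀ x : P, x ∈ Subgroup.zpowers a := fun x => by
      by_contra hx; exact hcon ⟨x, hx⟩
    exact ⟨⟨a, this⟩⟩
  have hk2 : 2 ≤ k := by
    by_contra hlt
    obtain ⟨h, hh⟩ := hAtop
    apply hh
    apply hcent
    have hk01 : k = 0 ∨ k = 1 := by omega
    rcases hk01 with rfl | rfl
    · have : a = 1 := by rw [← orderOf_eq_one_iff, hk, pow_zero]
      rw [this]; simp
    · have haa : a * a = 1 := by
        have := pow_orderOf_eq_one a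
        rw [hk, pow_one, pow_two] at this; exact this
      have hx : h * a * h⁻¹ ∈ Subgroup.zpowers a := hnorm h
      have hxx : (h * a * h⁻¹) * (h * a * h⁻¹) = 1 := by
        have : (h * a * h⁻¹) * (h * a * h⁻¹) = h * (a * a) * h⁻¹ := by group
        rw [this, haa]; group
      rcases Cfsg.Agent.H59.eq_one_or_eq_of_sq_mem_zpowers (le_refl 1) hk hx hxx with h1 | h1
      · exfalso
        have : a = 1 := by
          have e : a = h⁻¹ * (h * a * h⁻¹) * h := by group
          rw [e, h1]; group
        rw [this, orderOf_one] at hk; norm_num at hk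
      · simp only [Nat.sub_self, pow_zero, pow_one] at h1
        calc h * a = (h * a * h⁻¹) * h := by group
          _ = a * h := by rw [h1]
  obtain ⟨hzz, hz1, hzc⟩ := Cfsg.Agent.H11.z_facts a k hk (by omega) hnorm
  obtain ⟨b, hbA⟩ := hAtop
  have hbb := Cfsg.Agent.H11.sq_mem hP hn a k hk hk2 hnorm hcent b hbA
  obtain ⟨ζ, hζ, hbζ⟩ := Cfsg.Agent.H11.act_form hn a k hk hk2 hnorm hcent b hbA hbb
  have hzmem : a ^ (2 ^ (k - 1)) ∈ Subgroup.zpowers a := Subgroup.pow_mem _ (Subgroup.mem_zpowers a) _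
  generalize hzdef : a ^ (2 ^ (k - 1)) = zz at hzz hz1 hzc hζ hzmem
  have hzcomm : ∀ g : P, zz * g = g * zz := by
    intro g
    calc zz * g = (g * zz * g⁻¹) * g := by rw [hzc g]
      _ = g * zz := by group
  -- elements of `⟨a⟩` commuting with `b`
  have hK1 : ∀ h ∈ Subgroup.zpowers a, h * b = b * h → h = 1 ∨ h = zz := by
    intro h hh hcomm
    obtain ⟨i, rfl⟩ := Subgroup.mem_zpowers_iff.mp hh
    have hconj : b * a ^ i * b⁻¹ = (a⁻¹ * ζ) ^ i := by
      rw [← hbζ, conj_zpow]
    have hcomm' : a ^ i = (a⁻¹ * ζ) ^ i := by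
      rw [← hconj, ← hcomm]; group
    have hζa : Commute a⁻¹ ζ := by
      rcases hζ with hζ1 | ⟨hζz, _⟩
      · rw [hζ1]; exact Commute.one_right _
      · rw [hζz]; exact (hzcomm a⁻¹).symm
    rw [hζa.mul_zpow] at hcomm'
    have hsq : a ^ i * a ^ i = ζ ^ i := by
      calc a ^ i * a ^ i = a ^ i * (a⁻¹ ^ i * ζ ^ i) := by rw [← hcomm']
        _ = ζ ^ i := by rw [inv_zpow]; group
    rcases hζ with hζ1 | ⟨hζz, hk3⟩
    · rw [hζ1, one_zpow] at hsq
      rcases Cfsg.Agent.H59.eq_one_or_eq_of_sq_mem_zpowers (by omega : 1 ≤ k) hk hh hsq with h | h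
      · exact Or.inl h
      · exact Or.inr (by rw [h, hzdef])
    · rw [hζz] at hsq
      rcases Int.even_or_odd i with ⟨j, rfl⟩ | ⟨j, rfl⟩
      · have : zz ^ (j + j) = 1 := by
          rw [zpow_add, ← (Commute.refl zz).mul_zpow, hzz, one_zpow]
        rw [this] at hsq
        rcases Cfsg.Agent.H59.eq_one_or_eq_of_sq_mem_zpowers (by omega : 1 ≤ k) hk hh hsq with h | h
        · exact Or.inl h
        · exact Or.inr (by rw [h, hzdef])
      · exfalso
        have h1 : zz ^ (2 * j + 1) = zz := by
          rw [zpow_add, zpow_one, two_mul, zpow_add, ← (Commute.refl zz).mul_zpow, hzz, one_zpow,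
            one_mul]
        rw [h1] at hsq
        have h2 : a ^ (4 * (2 * j + 1)) = 1 := by
          have : a ^ (4 * (2 * j + 1)) = (a ^ (2 * j + 1) * a ^ (2 * j + 1)) *
              (a ^ (2 * j + 1) * a ^ (2 * j + 1)) := by
            rw [← zpow_add, ← zpow_add]; congr 1; ring
          rw [this, hsq, hzz]
        have h3 := orderOf_dvd_iff_zpow_eq_one.mpr h2
        rw [hk] at h3
        have h4 : ((2 : ℕ) ^ 3 : ℤ) ∣ ((2 ^ k : ℕ) : ℤ) := by
          exact_mod_cast pow_dvd_pow 2 hk3
        have h5 := h4.trans h3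
        norm_num at h5
        omega
  have hbne1 : b ≠ 1 := fun h => hbA (h ▸ one_mem _)
  have hbnez : zz ≠ b := fun h => hbA (h ▸ hzmem)
  have hcar : ((Subgroup.centralizer ({b} : Set P) : Subgroup P) : Set P) = {1, zz, b, zz * b} := by
    ext h
    simp only [SetLike.mem_coe, Subgroup.mem_centralizer_iff, Set.mem_singleton_iff, forall_eq,
      Set.mem_insert_iff]
    constructor
    · intro hcomm
      by_cases hh : h ∈ Subgroup.zpowers a
      · rcases hK1 h hh hcomm.symm with h1 | h1
        · exact Or.inl h1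
        · exact Or.inr (Or.inl h1)
      · have h1 := Cfsg.Agent.H11.coset_eq hn a k hk hk2 hnorm hcent b h hbA hbb hh
          (Cfsg.Agent.H11.sq_mem hP hn a k hk hk2 hnorm hcent h hh)
        have h2 : (b⁻¹ * h) * b = b * (b⁻¹ * h) := by
          calc (b⁻¹ * h) * b = b⁻¹ * (h * b) := by group
            _ = b⁻¹ * (b * h) := by rw [← hcomm]
            _ = b * (b⁻¹ * h) := by group
        rcases hK1 _ h1 h2 with h3 | h3
        · right; right; left
          calc h = b * (b⁻¹ * h) := by group
            _ = b := by rw [h3, mul_one]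
        · right; right; right
          calc h = b * (b⁻¹ * h) := by group
            _ = zz * b := by rw [h3, hzcomm]
    · rintro (rfl | rfl | rfl | rfl)
      · simp
      · exact (hzcomm b).symm
      · rfl
      · rw [← mul_assoc, hzcomm b]
  have hcard : Nat.card (Subgroup.centralizer ({b} : Set P)) = 2 ^ 2 := by
    have h1 : Nat.card (Subgroup.centralizer ({b} : Set P)) =
        ((Subgroup.centralizer ({b} : Set P) : Subgroup P) : Set P).ncard := rfl
    rw [h1, hcar]
    refine kk_ncard_four hz1 hbne1 hbnez ?_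
    intro h
    apply hbA
    have : b = zz⁻¹ := by
      calc b = zz⁻¹ * (zz * b) := by group
        _ = zz⁻¹ := by rw [h, mul_one]
    rw [this]; exact inv_mem hzmem
  have hcomm4 := IsPGroup.commutative_of_card_eq_prime_sq hcard
  have hself : Subgroup.centralizer ((Subgroup.centralizer ({b} : Set P) : Subgroup P) : Set P) =
      Subgroup.centralizer ({b} : Set P) := by
    apply le_antisymm
    · apply Subgroup.centralizer_le
      intro x hx
      rw [Set.mem_singleton_iff] at hx
      rw [hx]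
      exact Subgroup.mem_centralizer_iff.mpr (fun y hy => by rw [Set.mem_singleton_iff.mp hy])
    · intro x hx
      rw [Subgroup.mem_centralizer_iff]
      intro y hy
      have := hcomm4 ⟨y, hy⟩ ⟨x, hx⟩
      exact congrArg Subtype.val this
  exact Cfsg.Agent.H3.suzuki_aux 2 m P hG _ hcard hself

/-- The four-group `{1, z, v, z * v}`. -/
def kkFour {W : Type u} [Group W] (z v : W) (hzz : z * z = 1) (hvv : v * v = 1)
    (hcomm : z * v = v * z) : Subgroup W where
  carrier := {1, z, v, z * v}
  one_mem' := Or.inl rfl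
  mul_mem' := by
    have hzz' : ∀ x, z * (z * x) = x := fun x => by rw [← mul_assoc, hzz, one_mul]
    have hvv' : ∀ x, v * (v * x) = x := fun x => by rw [← mul_assoc, hvv, one_mul]
    have hvz : v * z = z * v := hcomm.symm
    have hvz' : ∀ x, v * (z * x) = z * (v * x) := fun x => by rw [← mul_assoc, hvz, mul_assoc]
    rintro a b (rfl | rfl | rfl | rfl) (rfl | rfl | rfl | rfl) <;>
      simp [mul_assoc, hzz, hvv, hzz', hvz, hvz']
  inv_mem' := by
    have hzi : z⁻¹ = z := inv_eq_of_mul_eq_one_left hzz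
    have hvi : v⁻¹ = v := inv_eq_of_mul_eq_one_left hvv
    rintro a (rfl | rfl | rfl | rfl)
    · simp
    · rw [hzi]; simp
    · rw [hvi]; simp
    · rw [mul_inv_rev, hzi, hvi, ← hcomm]; simp

theorem mem_kkFour {W : Type u} [Group W] {z v : W} {hzz : z * z = 1} {hvv : v * v = 1}
    {hcomm : z * v = v * z} {x : W} :
    x ∈ kkFour z v hzz hvv hcomm ↔ x = 1 ∨ x = z ∨ x = v ∨ x = z * v := Iff.rfl

theorem kkFour_card {W : Type u} [Group W] {z v : W} (hzz : z * z = 1) (hvv : v * v = 1)
    (hcomm : z * v = v * z) (hz1 : z ≠ 1) (hv1 : v ≠ 1) (hzv : z ≠ v) :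
    Nat.card (kkFour z v hzz hvv hcomm) = 4 := by
  have h1 : Nat.card (kkFour z v hzz hvv hcomm) = ({1, z, v, z * v} : Set W).ncard := rfl
  rw [h1]
  refine kk_ncard_four hz1 hv1 hzv ?_
  intro h
  apply hzv
  calc z = z * (z * v) := by rw [h, mul_one]
    _ = v := by rw [← mul_assoc, hzz, one_mul]

theorem kkFour_normal {W : Type u} [Group W] {z v : W} (hzz : z * z = 1) (hvv : v * v = 1)
    (hcomm : z * v = v * z) (hzc : ∀ h : W, h * z * h⁻¹ = z)
    (hvc : ∀ h : W, h * v * h⁻¹ = v ∨ h * v * h⁻¹ = z * v) :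
    (kkFour z v hzz hvv hcomm).Normal := by
  constructor
  rintro a (rfl | rfl | rfl | rfl) g
  · rw [mul_one, mul_inv_cancel]; exact Or.inl rfl
  · rw [hzc g]; exact Or.inr (Or.inl rfl)
  · rcases hvc g with h | h
    · rw [h]; exact Or.inr (Or.inr (Or.inl rfl))
    · rw [h]; exact Or.inr (Or.inr (Or.inr rfl))
  · have : g * (z * v) * g⁻¹ = (g * z * g⁻¹) * (g * v * g⁻¹) := by group
    rw [this, hzc g]
    rcases hvc g with h | h
    · rw [h]; exact Or.inr (Or.inr (Or.inr rfl))
    · rw [h, ← mul_assoc, hzz, one_mul]; exact Or.inr (Or.inr (Or.inl rfl))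

theorem kkFour_sq {W : Type u} [Group W] {z v : W} (hzz : z * z = 1) (hvv : v * v = 1)
    (hcomm : z * v = v * z) (e : W) (he : e ∈ kkFour z v hzz hvv hcomm) : e * e = 1 := by
  rcases he with rfl | rfl | rfl | rfl
  · rw [mul_one]
  · exact hzz
  · exact hvv
  · calc (z * v) * (z * v) = z * (v * z) * v := by group
      _ = z * (z * v) * v := by rw [hcomm]
      _ = (z * z) * (v * v) := by group
      _ = 1 := by rw [hzz, hvv, one_mul]

theorem kkFour_conj {W : Type u} [Group W] {z v : W} (hzz : z * z = 1) (hvv : v * v = 1)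
    (hcomm : z * v = v * z) (hzc : ∀ h : W, h * z * h⁻¹ = z)
    (hvc : ∀ h : W, h * v * h⁻¹ = v ∨ h * v * h⁻¹ = z * v)
    (e : W) (he : e ∈ kkFour z v hzz hvv hcomm) (x : W) :
    x * e * x⁻¹ = e ∨ x * e * x⁻¹ = z * e := by
  rcases he with rfl | rfl | rfl | rfl
  · left; rw [mul_one, mul_inv_cancel]
  · left; exact hzc x
  · exact hvc x
  · have : x * (z * v) * x⁻¹ = (x * z * x⁻¹) * (x * v * x⁻¹) := by group
    rw [this, hzc x]
    rcases hvc x with h | h
    · left; rw [h]
    · right; rw [h]

/-- Fourth powers are unchanged by multiplication with an involution which is centralized up to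
a central involution. -/
theorem kk_pow_four {W : Type u} [Group W] {z : W} (hzz : z * z = 1)
    (hzcen : ∀ g : W, z * g = g * z) (x u : W) (huu : u * u = 1)
    (hu : x * u * x⁻¹ = u ∨ x * u * x⁻¹ = z * u) : (x * u) ^ 4 = x ^ 4 := by
  have hsq : (x * u) * (x * u) = x * x ∨ (x * u) * (x * u) = z * (x * x) := by
    rcases hu with h | h
    · left
      have h1 : x * u = u * x := by
        calc x * u = (x * u * x⁻¹) * x := by group
          _ = u * x := by rw [h]
      calc (x * u) * (x * u) = x * (u * x) * u := by group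
        _ = x * (x * u) * u := by rw [h1]
        _ = x * x * (u * u) := by group
        _ = x * x := by rw [huu, mul_one]
    · right
      have h1 : x * u = z * u * x := by
        calc x * u = (x * u * x⁻¹) * x := by group
          _ = z * u * x := by rw [h]
      calc (x * u) * (x * u) = (x * u) * (z * u * x) := by rw [← h1]
        _ = x * (u * z) * (u * x) := by group
        _ = x * (z * u) * (u * x) := by rw [← hzcen u]
        _ = x * z * (u * u) * x := by group
        _ = (x * z) * x := by rw [huu, mul_one]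
        _ = z * (x * x) := by rw [← hzcen x, mul_assoc]
  have e : ∀ y : W, y ^ 4 = (y * y) * (y * y) := fun y => by
    rw [show (4 : ℕ) = 2 + 2 by norm_num, pow_add, pow_two]
  rw [e (x * u), e x]
  rcases hsq with h | h
  · rw [h]
  · rw [h]
    calc z * (x * x) * (z * (x * x)) = z * ((x * x) * z) * (x * x) := by group
      _ = z * (z * (x * x)) * (x * x) := by rw [← hzcen (x * x)]
      _ = (z * z) * (x * x) * (x * x) := by group
      _ = x * x * (x * x) := by rw [hzz, one_mul]

theorem kk_pow_two_pow {W : Type u} [Group W] {z : W} (hzz : z * z = 1)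
    (hzcen : ∀ g : W, z * g = g * z) (x u : W) (huu : u * u = 1)
    (hu : x * u * x⁻¹ = u ∨ x * u * x⁻¹ = z * u) (n : ℕ) (hn : 1 ≤ n) :
    (x * u) ^ 2 ^ (n + 1) = x ^ 2 ^ (n + 1) := by
  obtain ⟨j, rfl⟩ : ∃ j, n = j + 1 := ⟨n - 1, by omega⟩
  have : 2 ^ (j + 1 + 1) = 4 * 2 ^ j := by ring
  rw [this, pow_mul, pow_mul, kk_pow_four hzz hzcen x u huu hu]

/-- A set closed under right multiplication by a subgroup `E` is a union of cosets. -/
theorem kk_card_closed {W : Type u} [Group W] [Finite W] (E : Subgroup W) (R : Set W)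
    (hR : ∀ x ∈ R, ∀ e ∈ E, x * e ∈ R) :
    R.ncard = Nat.card E * ((QuotientGroup.mk : W → W ⧸ E) '' R).ncard := by
  have h1 : R = (QuotientGroup.mk : W → W ⧸ E) ⁻¹' ((QuotientGroup.mk : W → W ⧸ E) '' R) := by
    apply Set.Subset.antisymm (Set.subset_preimage_image _ _)
    rintro y ⟨x, hx, hxy⟩
    have h2 : x⁻¹ * y ∈ E := QuotientGroup.eq.mp hxy
    have h3 := hR x hx _ h2
    rwa [mul_inv_cancel_left] at h3
  have h2 := Nat.card_congr (QuotientGroup.preimageMkEquivSubgroupProdSet E
    ((QuotientGroup.mk : W → W ⧸ E) '' R))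
  rw [Nat.card_prod] at h2
  calc R.ncard = Nat.card R := (Nat.card_coe_set_eq R).symm
    _ = Nat.card ((QuotientGroup.mk : W → W ⧸ E) ⁻¹' ((QuotientGroup.mk : W → W ⧸ E) '' R)) := by
      rw [← h1]
    _ = Nat.card E * Nat.card ((QuotientGroup.mk : W → W ⧸ E) '' R) := h2
    _ = Nat.card E * ((QuotientGroup.mk : W → W ⧸ E) '' R).ncard := by
      rw [Nat.card_coe_set_eq]

/-- A finite type with a fixed-point-free involution has even cardinality. -/
theorem kk_even_of_invol {α : Type u} [Finite α] (f : α → α) (hf : ∀ x, f (f x) = x)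
    (hfix : ∀ x, f x ≠ x) : Even (Nat.card α) := by
  classical
  haveI := Fintype.ofFinite α
  let σ : Equiv.Perm α := ⟨f, f, hf, hf⟩
  have h1 : σ ^ 2 = 1 := by
    ext x
    show (σ ^ 2) x = x
    rw [pow_two]
    exact hf x
  have h2 := Equiv.Perm.two_dvd_card_support h1
  have h3 : σ.support = Finset.univ := by
    ext x
    simp only [Equiv.Perm.mem_support, Finset.mem_univ, iff_true]
    exact hfix x
  rw [h3, Finset.card_univ] at h2
  rw [Nat.card_eq_fintype_card]
  exact even_iff_two_dvd.mpr h2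

end Cfsg.Agent.H15
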