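import Mathlib
import Cfsg.Agent.H15.Kulakoff2

/-!
# Kulakoff's theorem for `p = 2`: counting involutions
-/

set_option autoImplicit false

universe u

namespace Cfsg.Agent.H15

open Subgroup

/-- In a `2`-group which is not of maximal class and has a normal four-group, the number of
solutions of `x * x = 1` is divisible by `4`. -/
theorem kk_invol_four {G : Type u} [Group G] [Finite G] (m : ℕ) (hG : Nat.card G = 2 ^ m)
    (h2 : Group.nilpotencyClass G ≠ m - 1)
    (z v : G) (hz1 : z ≠ 1) (hzz : z * z = 1) (hv1 : v ≠ 1) (hvv : v * v = 1) (hzv : z ≠ v)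
    (hcomm : z * v = v * z) (hzc : ∀ h : G, h * z * h⁻¹ = z)
    (hvc : ∀ h : G, h * v * h⁻¹ = v ∨ h * v * h⁻¹ = z * v) :
    4 ∣ ({x : G | x * x = 1} : Set G).ncard := by
  haveI : Fact (Nat.Prime 2) := ⟨Nat.prime_two⟩
  have hzcen : ∀ g : G, z * g = g * z := fun g => by
    calc z * g = (g * z * g⁻¹) * g := by rw [hzc g]
      _ = g * z := by group
  have hEn : (kkFour z v hzz hvv hcomm).Normal := kkFour_normal hzz hvv hcomm hzc hvc
  have hEcard : Nat.card (kkFour z v hzz hvv hcomm) = 4 := kkFour_card hzz hvv hcomm hz1 hv1 hzv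
  have hEsq : ∀ e ∈ kkFour z v hzz hvv hcomm, e * e = 1 :=
    fun e he => kkFour_sq hzz hvv hcomm e he
  have hEmem : ∀ e, e ∈ kkFour z v hzz hvv hcomm ↔ e = 1 ∨ e = z ∨ e = v ∨ e = z * v :=
    fun e => Iff.rfl
  generalize kkFour z v hzz hvv hcomm = E at hEn hEcard hEsq hEmem
  have hEv : ∀ e ∈ E, e * v = v * e := by
    intro e he
    rcases (hEmem e).1 he with rfl | rfl | rfl | rfl
    · rw [one_mul, mul_one]
    · exact hcomm
    · rfl
    · calc z * v * v = v * z * v := by rw [hcomm]
        _ = v * (z * v) := mul_assoc _ _ _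
  have hcomE : ∀ x : G, x * v = v * x → ∀ e ∈ E, x * e = e * x := by
    intro x hx e he
    rcases (hEmem e).1 he with rfl | rfl | rfl | rfl
    · rw [one_mul, mul_one]
    · exact (hzcen x).symm
    · exact hx
    · rw [← mul_assoc, ← hzcen x, mul_assoc, hx, ← mul_assoc]
  -- the part inside the centralizer of `v`
  have hTC : 4 ∣ ({x : G | x * v = v * x ∧ x * x = 1} : Set G).ncard := by
    rw [kk_card_closed E _ ?_, hEcard]
    · exact dvd_mul_right _ _
    · rintro x ⟨hxv, hxx⟩ e he
      have hxe := hcomE x hxv e he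
      refine ⟨?_, ?_⟩
      · rw [mul_assoc, hEv e he, ← mul_assoc, hxv, mul_assoc]
      · calc (x * e) * (x * e) = x * (e * x) * e := by group
          _ = x * (x * e) * e := by rw [hxe]
          _ = (x * x) * (e * e) := by group
          _ = 1 := by rw [hxx, hEsq e he, mul_one]
  -- the part outside the centralizer of `v`
  have hTo : 4 ∣ ({x : G | ¬ (x * v = v * x) ∧ x * x = 1} : Set G).ncard := by
    by_cases hex : ∃ x₀ : G, ¬ (x₀ * v = v * x₀)
    swap
    · have : ({x : G | ¬ (x * v = v * x) ∧ x * x = 1} : Set G) = ∅ := by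
        ext x
        simp only [Set.mem_ofPred_eq, Set.mem_empty_iff_false, iff_false, not_and]
        intro hx; exact absurd ⟨x, hx⟩ hex
      rw [this, Set.ncard_empty]; exact dvd_zero _
    obtain ⟨x₀, hx₀⟩ := hex
    have hnc : ∀ x : G, ¬ (x * v = v * x) → x * v * x⁻¹ = z * v := by
      intro x hx
      rcases hvc x with h | h
      · exfalso; apply hx
        calc x * v = (x * v * x⁻¹) * x := by group
          _ = v * x := by rw [h]
      · exact h
    have hnc' : ∀ x : G, ¬ (x * v = v * x) → v * x = z * (x * v) := by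
      intro x hx
      have h := hnc x hx
      have h1 : x * v = z * v * x := by
        calc x * v = (x * v * x⁻¹) * x := by group
          _ = z * v * x := by rw [h]
      calc v * x = (z * z) * (v * x) := by rw [hzz, one_mul]
        _ = z * (z * v * x) := by group
        _ = z * (x * v) := by rw [← h1]
    have hsqv : ∀ x : G, ¬ (x * v = v * x) → (x * v) * (x * v) = z * (x * x) := by
      intro x hx
      calc (x * v) * (x * v) = x * (v * x) * v := by group
        _ = x * (z * (x * v)) * v := by rw [hnc' x hx]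
        _ = (x * z) * (x * (v * v)) := by group
        _ = z * (x * x) := by rw [hvv, mul_one, ← hzcen x, mul_assoc]
    have hmulv : ∀ x : G, ¬ (x * v = v * x) → ¬ ((x * v) * v = v * (x * v)) := by
      intro x hx h
      apply hx
      have : x * v * v = v * x * v := by rw [h, mul_assoc]
      exact mul_right_cancel this
    -- `m ≥ 4`
    have hm4 : 4 ≤ m := by
      by_contra hlt
      apply hx₀
      have hm2 : 2 ≤ m := by
        have h1 := Subgroup.card_le_card_group E
        rw [hEcard, hG] at h1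
        by_contra h
        have h3 : m ≤ 1 := by omega
        have h4 := Nat.pow_le_pow_right (by norm_num : 1 ≤ 2) h3
        omega
      have hcl := Cfsg.Agent.H3.class_le_of_card 2 m G hG hm2
      have hcl1 : Group.nilpotencyClass G ≤ 1 := by omega
      haveI : Group.IsNilpotent G := (IsPGroup.of_card hG).isNilpotent
      have hcm : IsMulCommutative G := Group.IsNilpotent.nilpotencyClass_le_one_iff.mp hcl1
      exact hcm.is_comm.comm x₀ v
    -- the centralizer of `v` has index two
    have hmemC : ∀ x : G, x ∈ Subgroup.centralizer ({v} : Set G) ↔ x * v = v * x := by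
      intro x
      rw [Subgroup.mem_centralizer_iff]
      constructor
      · intro h; exact (h v rfl).symm
      · intro h y hy; rw [Set.mem_singleton_iff.mp hy]; exact h.symm
    have hidx : (Subgroup.centralizer ({v} : Set G)).index = 2 := by
      rw [Subgroup.index_eq_two_iff]
      refine ⟨x₀, fun b => ?_⟩
      by_cases hb : b * v = v * b
      · refine Or.inr ⟨(hmemC b).2 hb, fun h => hx₀ ?_⟩
        have h1 : b⁻¹ * (b * x₀) ∈ Subgroup.centralizer ({v} : Set G) :=
          mul_mem (inv_mem ((hmemC b).2 hb)) h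
        rw [inv_mul_cancel_left] at h1
        exact (hmemC x₀).1 h1
      · refine Or.inl ⟨(hmemC _).2 ?_, fun h => hb ((hmemC b).1 h)⟩
        symm
        calc v * (b * x₀) = (v * b) * x₀ := by group
          _ = z * (b * v) * x₀ := by rw [hnc' b hb]
          _ = z * b * (v * x₀) := by group
          _ = z * b * (z * (x₀ * v)) := by rw [hnc' x₀ hx₀]
          _ = z * (b * z) * (x₀ * v) := by group
          _ = z * (z * b) * (x₀ * v) := by rw [hzcen b]
          _ = (z * z) * (b * x₀ * v) := by group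
          _ = b * x₀ * v := by rw [hzz, one_mul]
    have hcardC := Subgroup.card_mul_index (Subgroup.centralizer ({v} : Set G))
    rw [hidx, hG] at hcardC
    have hcompl := Set.ncard_add_ncard_compl ((Subgroup.centralizer ({v} : Set G) : Subgroup G) : Set G)
    rw [hG] at hcompl
    have hCc : (((Subgroup.centralizer ({v} : Set G) : Subgroup G) : Set G))ᶜ =
        {x : G | ¬ (x * v = v * x)} := by
      ext x
      simp only [Set.mem_compl_iff, SetLike.mem_coe, Set.mem_ofPred_eq, hmemC]
    have hCn : (((Subgroup.centralizer ({v} : Set G) : Subgroup G) : Set G)).ncard =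
        Nat.card (Subgroup.centralizer ({v} : Set G)) := rfl
    rw [hCc, hCn] at hcompl
    -- the two `E`-closed parts of the complement
    have hconjE : ∀ x : G, ∀ e ∈ E, (x * e) * (x * e) = (x * x) * ((x⁻¹ * e * x) * e) := by
      intro x e _; group
    have hconjmem : ∀ x : G, ∀ e ∈ E, (x⁻¹ * e * x) * e ∈ E := by
      intro x e he
      have h1 := hEn.conj_mem e he x⁻¹
      rw [inv_inv] at h1
      exact mul_mem h1 he
    have hnotC : ∀ x : G, ¬ (x * v = v * x) → ∀ e ∈ E, ¬ ((x * e) * v = v * (x * e)) := by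
      intro x hx e he h
      apply hx
      have h1 : x * v * e = v * x * e := by
        calc x * v * e = x * (v * e) := mul_assoc _ _ _
          _ = x * (e * v) := by rw [hEv e he]
          _ = (x * e) * v := (mul_assoc _ _ _).symm
          _ = v * (x * e) := h
          _ = v * x * e := (mul_assoc _ _ _).symm
      exact mul_right_cancel h1
    have hR : ({x : G | ¬ (x * v = v * x) ∧ x * x ∈ E} : Set G).ncard =
        4 * ((QuotientGroup.mk : G → G ⧸ E) '' {x : G | ¬ (x * v = v * x) ∧ x * x ∈ E}).ncard := by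
      rw [kk_card_closed E _ ?_, hEcard]
      rintro x ⟨hx1, hx2⟩ e he
      refine ⟨hnotC x hx1 e he, ?_⟩
      rw [hconjE x e he]
      exact mul_mem hx2 (hconjmem x e he)
    have hW : ({x : G | ¬ (x * v = v * x) ∧ x * x ∉ E} : Set G).ncard =
        4 * ((QuotientGroup.mk : G → G ⧸ E) '' {x : G | ¬ (x * v = v * x) ∧ x * x ∉ E}).ncard := by
      rw [kk_card_closed E _ ?_, hEcard]
      rintro x ⟨hx1, hx2⟩ e he
      refine ⟨hnotC x hx1 e he, ?_⟩
      rw [hconjE x e he]
      intro h
      exact hx2 ((Subgroup.mul_mem_cancel_right E (hconjmem x e he)).1 h)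
    have hWeven : Even (((QuotientGroup.mk : G → G ⧸ E) ''
        {x : G | ¬ (x * v = v * x) ∧ x * x ∉ E}).ncard) := by
      rw [← Nat.card_coe_set_eq]
      have hinv : ∀ q : G ⧸ E, q ∈ (QuotientGroup.mk : G → G ⧸ E) ''
          {x : G | ¬ (x * v = v * x) ∧ x * x ∉ E} → q⁻¹ ∈ (QuotientGroup.mk : G → G ⧸ E) ''
          {x : G | ¬ (x * v = v * x) ∧ x * x ∉ E} := by
        rintro q ⟨x, ⟨hx1, hx2⟩, rfl⟩
        refine ⟨x⁻¹, ⟨?_, ?_⟩, rfl⟩
        · intro h
          apply hx1
          calc x * v = x * (v * x⁻¹) * x := by group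
            _ = x * (x⁻¹ * v) * x := by rw [h]
            _ = v * x := by group
        · intro h
          apply hx2
          have h1 := inv_mem h
          have h3 : (x⁻¹ * x⁻¹)⁻¹ = x * x := by rw [mul_inv_rev, inv_inv]
          rwa [h3] at h1
      refine kk_even_of_invol (fun q => ⟨q.1⁻¹, hinv q.1 q.2⟩) ?_ ?_
      · intro q
        exact Subtype.ext (inv_inv _)
      · rintro ⟨q, x, ⟨hx1, hx2⟩, rfl⟩ h
        have h1 : ((x : G ⧸ E))⁻¹ = (x : G ⧸ E) := congrArg Subtype.val h
        have h3 : ((x * x : G) : G ⧸ E) = 1 := by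
          calc ((x * x : G) : G ⧸ E) = (x : G ⧸ E) * (x : G ⧸ E) := rfl
            _ = ((x : G ⧸ E))⁻¹ * (x : G ⧸ E) := by rw [h1]
            _ = 1 := inv_mul_cancel _
        exact hx2 ((QuotientGroup.eq_one_iff _).1 h3)
    have hunion : ({x : G | ¬ (x * v = v * x)} : Set G).ncard =
        ({x : G | ¬ (x * v = v * x) ∧ x * x ∈ E} : Set G).ncard +
        ({x : G | ¬ (x * v = v * x) ∧ x * x ∉ E} : Set G).ncard := by
      rw [← Set.ncard_union_eq]
      · congr 1
        ext x
        simp only [Set.mem_ofPred_eq, Set.mem_union]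
        constructor
        · intro h
          by_cases hE : x * x ∈ E
          · exact Or.inl ⟨h, hE⟩
          · exact Or.inr ⟨h, hE⟩
        · rintro (⟨h, -⟩ | ⟨h, -⟩) <;> exact h
      · exact Set.disjoint_left.mpr (fun x hx hx' => hx'.2 hx.2)
    -- the fixed cosets
    have hRsplit : ({x : G | ¬ (x * v = v * x) ∧ x * x ∈ E} : Set G) =
        {x : G | ¬ (x * v = v * x) ∧ x * x = 1} ∪ {x : G | ¬ (x * v = v * x) ∧ x * x = z} := by
      ext x
      simp only [Set.mem_ofPred_eq, Set.mem_union]
      constructor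
      · rintro ⟨hx1, hx2⟩
        rcases (hEmem _).1 hx2 with h | h | h | h
        · exact Or.inl ⟨hx1, h⟩
        · exact Or.inr ⟨hx1, h⟩
        · exfalso; apply hx1
          calc x * v = x * (x * x) := by rw [h]
            _ = (x * x) * x := (mul_assoc _ _ _).symm
            _ = v * x := by rw [h]
        · exfalso; apply hx1
          have h1 : z * (x * v) = z * (v * x) := by
            calc z * (x * v) = (z * x) * v := (mul_assoc _ _ _).symm
              _ = (x * z) * v := by rw [hzcen x]
              _ = x * (z * v) := mul_assoc _ _ _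
              _ = x * (x * x) := by rw [h]
              _ = (x * x) * x := (mul_assoc _ _ _).symm
              _ = z * v * x := by rw [h]
              _ = z * (v * x) := mul_assoc _ _ _
          exact mul_left_cancel h1
      · rintro (⟨hx1, hx2⟩ | ⟨hx1, hx2⟩)
        · exact ⟨hx1, (hEmem _).2 (Or.inl hx2)⟩
        · exact ⟨hx1, (hEmem _).2 (Or.inr (Or.inl hx2))⟩
    have himage : ({x : G | ¬ (x * v = v * x) ∧ x * x = z} : Set G) =
        (fun x => x * v) '' {x : G | ¬ (x * v = v * x) ∧ x * x = 1} := by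
      ext y
      constructor
      · rintro ⟨hy1, hy2⟩
        refine ⟨y * v, ⟨hmulv y hy1, ?_⟩, ?_⟩
        · rw [hsqv y hy1, hy2, hzz]
        · show y * v * v = y
          rw [mul_assoc, hvv, mul_one]
      · rintro ⟨x, ⟨hx1, hx2⟩, rfl⟩
        exact ⟨hmulv x hx1, by rw [hsqv x hx1, hx2, mul_one]⟩
    have hRcard : ({x : G | ¬ (x * v = v * x) ∧ x * x ∈ E} : Set G).ncard =
        2 * ({x : G | ¬ (x * v = v * x) ∧ x * x = 1} : Set G).ncard := by
      rw [hRsplit, Set.ncard_union_eq, himage,
        Set.ncard_image_of_injective _ (mul_left_injective v), two_mul]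
      rw [Set.disjoint_left]
      rintro x ⟨-, hx2⟩ ⟨-, hx3⟩
      exact hz1 (by rw [← hx3, hx2])
    obtain ⟨w, hw⟩ := hWeven
    have hpow : 2 ^ m = 16 * 2 ^ (m - 4) := by
      have : m = 4 + (m - 4) := by omega
      conv_lhs => rw [this, pow_add]
      norm_num
    omega
  -- conclusion
  have hsplit : ({x : G | x * x = 1} : Set G) =
      {x : G | x * v = v * x ∧ x * x = 1} ∪ {x : G | ¬ (x * v = v * x) ∧ x * x = 1} := by
    ext x
    simp only [Set.mem_ofPred_eq, Set.mem_union]
    constructor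
    · intro h
      by_cases hx : x * v = v * x
      · exact Or.inl ⟨hx, h⟩
      · exact Or.inr ⟨hx, h⟩
    · rintro (⟨-, h⟩ | ⟨-, h⟩) <;> exact h
  rw [hsplit, Set.ncard_union_eq]
  · exact dvd_add hTC hTo
  · exact Set.disjoint_left.mpr (fun x hx hx' => hx'.1 hx.1)

/-- The subgroups of order `2` correspond to the nontrivial solutions of `x * x = 1`. -/
theorem kk_card_order_two {G : Type u} [Group G] [Finite G] :
    Nat.card {H : Subgroup G // Nat.card H = 2} + 1 = ({x : G | x * x = 1} : Set G).ncard := by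
  haveI : Fact (Nat.Prime 2) := ⟨Nat.prime_two⟩
  have h1 : ({x : G | x * x = 1} : Set G) = insert 1 {x : G | x ≠ 1 ∧ x * x = 1} := by
    ext x
    simp only [Set.mem_ofPred_eq, Set.mem_insert_iff]
    constructor
    · intro h
      by_cases hx : x = 1
      · exact Or.inl hx
      · exact Or.inr ⟨hx, h⟩
    · rintro (rfl | ⟨-, h⟩)
      · exact mul_one 1
      · exact h
  rw [h1, Set.ncard_insert_of_notMem (fun h => h.1 rfl)]
  congr 1
  rw [← Nat.card_coe_set_eq]
  symm
  have hord : ∀ x : G, x ≠ 1 → x * x = 1 → orderOf x = 2 := fun x hx1 hxx =>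
    orderOf_eq_prime (by rw [pow_two]; exact hxx) hx1
  let φ : ({x : G | x ≠ 1 ∧ x * x = 1} : Set G) → {H : Subgroup G // Nat.card H = 2} :=
    fun x => ⟨zpowers x.1, by rw [Nat.card_zpowers]; exact hord x.1 x.2.1 x.2.2⟩
  refine Nat.card_congr (Equiv.ofBijective φ ⟨?_, ?_⟩)
  · rintro ⟨x, hx1, hxx⟩ ⟨y, hy1, hyy⟩ h
    have h3 : zpowers x = zpowers y := congrArg Subtype.val h
    have h4 : y ∈ zpowers x := h3 ▸ mem_zpowers y
    obtain ⟨i, hi⟩ := Subgroup.mem_zpowers_iff.mp h4
    apply Subtype.ext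
    show x = y
    rcases Int.even_or_odd i with ⟨j, rfl⟩ | ⟨j, rfl⟩
    · exfalso
      apply hy1
      rw [← hi, zpow_add, ← (Commute.refl x).mul_zpow, hxx, one_zpow]
    · rw [← hi, zpow_add, zpow_one, two_mul, zpow_add, ← (Commute.refl x).mul_zpow, hxx, one_zpow,
        one_mul]
  · rintro ⟨H, hH⟩
    have hcyc : IsCyclic H := isCyclic_of_prime_card hH
    obtain ⟨x, rfl⟩ := Cfsg.Agent.H74.Mil.exists_zpowers_eq H hcyc
    rw [Nat.card_zpowers] at hH
    have hx1 : x ≠ 1 := by
      rintro rfl
      rw [orderOf_one] at hH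
      omega
    have hxx : x * x = 1 := by
      rw [← pow_two, ← hH]; exact pow_orderOf_eq_one x
    exact ⟨⟨x, hx1, hxx⟩, rfl⟩

/-- Kulakoff's theorem for `p = 2`: noncyclic `2`-groups not of maximal class. -/
theorem kk_two {G : Type u} [Group G] [Finite G] (m : ℕ) (hG : Nat.card G = 2 ^ m)
    (hnc : ¬ IsCyclic G) (h2 : Group.nilpotencyClass G ≠ m - 1) (k : ℕ) (hk1 : 1 ≤ k)
    (hk2 : k < m) :
    Nat.card {H : Subgroup G // Nat.card H = 2 ^ k} ≡ 1 + 2 [MOD 2 ^ 2] := by
  haveI : Fact (Nat.Prime 2) := ⟨Nat.prime_two⟩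
  have hP : IsPGroup 2 G := IsPGroup.of_card hG
  by_cases hn : ∀ A : Subgroup G, A.Normal → IsMulCommutative A → IsCyclic A
  · exact absurd (kk_maxclass m hG hn hnc) h2
  push Not at hn
  obtain ⟨A, hAn, hAc, hAnc⟩ := hn
  obtain ⟨z, v, hz1, hzz, hv1, hvv, hzv, hcomm, hzc, hvc⟩ :=
    Cfsg.Agent.H25.exists_four_of_normal_abelian hP A hAn
      (fun a ha b hb => congrArg Subtype.val (hAc.is_comm.comm ⟨a, ha⟩ ⟨b, hb⟩)) hAnc
  rcases Nat.lt_or_ge k 2 with hk | hk
  · have hk' : k = 1 := by omega
    subst hk'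
    obtain ⟨c, hc⟩ := kk_invol_four m hG h2 z v hz1 hzz hv1 hvv hzv hcomm hzc hvc
    have h5 := kk_card_order_two (G := G)
    rw [pow_one]
    have h6 : Nat.card {H : Subgroup G // Nat.card H = 2} = 4 * c - 1 := by omega
    have h7 : 1 ≤ c := by omega
    rw [h6]
    obtain ⟨d, rfl⟩ : ∃ d, c = d + 1 := ⟨c - 1, by omega⟩
    have h8 : 4 * (d + 1) - 1 = 3 + 4 * d := by omega
    rw [h8]
    show (3 + 4 * d) % (2 ^ 2) = (1 + 2) % (2 ^ 2)
    norm_num
  · have hzcen : ∀ g : G, z * g = g * z := fun g => by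
      calc z * g = (g * z * g⁻¹) * g := by rw [hzc g]
        _ = g * z := by group
    obtain ⟨n, rfl⟩ : ∃ n, k = n + 1 := ⟨k - 1, by omega⟩
    haveI hEn : (kkFour z v hzz hvv hcomm).Normal := kkFour_normal hzz hvv hcomm hzc hvc
    have hEcard : Nat.card (kkFour z v hzz hvv hcomm) = 2 ^ 2 :=
      kkFour_card hzz hvv hcomm hz1 hv1 hzv
    have hc := kk_miller (p := 2) (kkFour z v hzz hvv hcomm)
      (fun e he => by rw [pow_two]; exact kkFour_sq hzz hvv hcomm e he) hEcard n
      (fun x e he => kk_pow_two_pow hzz hzcen x e (kkFour_sq hzz hvv hcomm e he)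
        (kkFour_conj hzz hvv hcomm hzc hvc e he x) n (by omega))
    exact kk_reduce 2 (n + 1) (by rw [hG]; exact pow_dvd_pow 2 (by omega)) hc

end Cfsg.Agent.H15
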