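import Cfsg.Agent.H43.MCDefs
import Cfsg.Agent.S1992

set_option autoImplicit false

/-!
# S3905 (helper43), piece INTP
-/

namespace Cfsg.Agent.H15.MC

open Cfsg.Agent.H43.MC

universe u

theorem mem_center_iff_cent {G : Type*} [Group G] (N : Subgroup G) (n : ↥N) :
    n ∈ Subgroup.center ↥N ↔ (n : G) ∈ Subgroup.centralizer (N : Set G) := by
  rw [Subgroup.mem_center_iff, Subgroup.mem_centralizer_iff]
  constructor
  · intro h g hg
    exact congrArg Subtype.val (h ⟨g, hg⟩)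
  · intro h g
    exact Subtype.ext (h g g.2)

theorem sylow_selfnorm_conj {H : Type*} [Group H] [Finite H] {q : ℕ} [Fact q.Prime]
    (Q1 Q : Sylow q H)
    (h : Subgroup.normalizer ((Q1 : Subgroup H) : Set H) = Q1) :
    Subgroup.normalizer ((Q : Subgroup H) : Set H) = Q := by
  obtain ⟨g, rfl⟩ := MulAction.exists_smul_eq H Q1 Q
  apply le_antisymm
  · intro n hn
    have h1 : n • (g • Q1) = g • Q1 := Sylow.smul_eq_iff_mem_normalizer.mpr hn
    have h2 : (g⁻¹ * n * g) • Q1 = Q1 := by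
      rw [mul_smul, mul_smul, h1, inv_smul_smul]
    have h3 : g⁻¹ * n * g ∈ (Q1 : Subgroup H) := by
      have h4 : g⁻¹ * n * g ∈ Subgroup.normalizer ((Q1 : Subgroup H) : Set H) :=
        Sylow.smul_eq_iff_mem_normalizer.mp h2
      rw [h] at h4; exact h4
    rw [Sylow.coe_subgroup_smul, Subgroup.mem_pointwise_smul_iff_inv_smul_mem]
    simpa [MulAut.smul_def, mul_assoc] using h3
  · exact Subgroup.le_normalizer

theorem intP (hP : StPrim.{u}) (hS : StSplit.{u}) (hN : StNCond.{u}) : StIntP.{u} := by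
  intro G _ _ N h1 h2
  by_contra hcon
  obtain ⟨Z, hZ⟩ : ∃ Z : Subgroup G, Z = ZN N := ⟨_, rfl⟩
  have hZmem : ∀ z : G, z ∈ Z ↔ z ∈ N ∧ z ∈ Subgroup.centralizer (N : Set G) := by
    intro z; rw [hZ]; exact mem_ZN
  -- `Z` is centralized by `N`
  have hZnorm : ∀ t ∈ N, ∀ a ∈ Z, t * a * t⁻¹ ∈ Z := by
    intro t ht a ha
    have h := mem_cent_set.mp ((hZmem a).mp ha).2 t ht
    have h' : t * a * t⁻¹ = a := by rw [h]; group
    rw [h']; exact ha
  -- the self-normalizing core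
  have key : ∀ (q : ℕ), q.Prime → ∀ x : G, x ∈ N → x ∉ Subgroup.centralizer (N : Set G) →
      (∃ p k : ℕ, p.Prime ∧ orderOf x = p ^ k) → ∀ T : Subgroup G, T ≤ N →
      N ⊓ Subgroup.centralizer ({x} : Set G) ≤ T → (∀ t ∈ T, ∃ k : ℕ, t ^ (q ^ k) ∈ Z) →
      T = N ⊓ Subgroup.centralizer ({x} : Set G) := by
    intro q hq x hxN hxZ hxo T hTN hCT hTq
    by_contra hne
    have hZC : Z ≤ N ⊓ Subgroup.centralizer ({x} : Set G) := by
      intro z hz
      refine Subgroup.mem_inf.mpr ⟨((hZmem z).mp hz).1, ?_⟩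
      rw [mem_cent_singleton]
      exact (mem_cent_set.mp ((hZmem z).mp hz).2 x hxN).symm
    obtain ⟨n, hnT, hnC, hnorm⟩ := hN G q hq Z (N ⊓ Subgroup.centralizer ({x} : Set G)) T hZC hCT
      (fun h => hne h.symm) (fun t ht a ha => hZnorm t (hTN ht) a ha) hTq
    apply hnC
    refine Subgroup.mem_inf.mpr ⟨hTN hnT, ?_⟩
    rw [mem_cent_singleton]
    have h3 := h2 x hxN hxZ hxo n (hTN hnT) (fun c hc hcx => by
      have hcC : c ∈ N ⊓ Subgroup.centralizer ({x} : Set G) :=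
        Subgroup.mem_inf.mpr ⟨hc, mem_cent_singleton.mpr hcx.eq⟩
      exact mem_cent_singleton.mp (Subgroup.mem_inf.mp (hnorm c hcC)).2)
    exact h3.eq
  -- Step B: the quotient is a `q`-group
  obtain ⟨q, hq, hpg⟩ : ∃ q : ℕ, q.Prime ∧ IsPGroup q (↥N ⧸ Subgroup.center ↥N) := by
    apply Cfsg.Agent.S1992.result
    intro q hq hqd Q
    have hqF : Fact q.Prime := ⟨hq⟩
    obtain ⟨gbar, hgbar⟩ := exists_prime_orderOf_dvd_card' q hqd
    obtain ⟨g, rfl⟩ := QuotientGroup.mk_surjective gbar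
    obtain ⟨a, b, hab, ⟨k, hka⟩, hcop⟩ := hS G q hq (g : G)
    -- `g ^ b` is central
    have hgb1 : (QuotientGroup.mk (g ^ b) : ↥N ⧸ Subgroup.center ↥N) = 1 := by
      have hd1 : orderOf (QuotientGroup.mk (g ^ b) : ↥N ⧸ Subgroup.center ↥N) ∣ q := by
        rw [← hgbar, QuotientGroup.mk_pow]; exact orderOf_pow_dvd b
      have hd2 : orderOf (QuotientGroup.mk (g ^ b) : ↥N ⧸ Subgroup.center ↥N) ∣
          orderOf ((g : G) ^ b) := by
        have h3 := orderOf_map_dvd (QuotientGroup.mk' (Subgroup.center ↥N)) (g ^ b)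
        rw [← Subgroup.orderOf_coe, Subgroup.coe_pow] at h3
        exact h3
      have h4 : (orderOf (QuotientGroup.mk (g ^ b) : ↥N ⧸ Subgroup.center ↥N)).Coprime q :=
        Nat.Coprime.coprime_dvd_left hd2 hcop
      exact orderOf_eq_one_iff.mp (Nat.Coprime.eq_one_of_dvd h4 hd1)
    have hgab : g = g ^ a * g ^ b := Subtype.ext (by
      rw [Subgroup.coe_mul, Subgroup.coe_pow, Subgroup.coe_pow]; exact hab)
    have hga : (QuotientGroup.mk (g ^ a) : ↥N ⧸ Subgroup.center ↥N) = QuotientGroup.mk g := by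
      conv_rhs => rw [hgab]
      rw [QuotientGroup.mk_mul, hgb1, mul_one]
    obtain ⟨x, hx⟩ : ∃ x : G, x = (g : G) ^ a := ⟨_, rfl⟩
    have hxN : x ∈ N := by rw [hx]; exact N.pow_mem g.2 a
    have hxZ : x ∉ Subgroup.centralizer (N : Set G) := by
      intro hc
      have h3 : (QuotientGroup.mk (g ^ a) : ↥N ⧸ Subgroup.center ↥N) = 1 := by
        rw [QuotientGroup.eq_one_iff, mem_center_iff_cent, Subgroup.coe_pow, ← hx]; exact hc
      rw [hga] at h3
      rw [h3, orderOf_one] at hgbar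
      exact hq.one_lt.ne hgbar
    have hxo : ∃ p k : ℕ, p.Prime ∧ orderOf x = p ^ k := ⟨q, k, hq, by rw [hx]; exact hka⟩
    have hxo' : ∃ k : ℕ, orderOf x = q ^ k := ⟨k, by rw [hx]; exact hka⟩
    -- `C/Z` is a `q`-group
    have hCq : ∀ c ∈ N ⊓ Subgroup.centralizer ({x} : Set G), ∃ j : ℕ, c ^ (q ^ j) ∈ Z := by
      intro c hc
      obtain ⟨a', b', hab', ⟨j, hj⟩, hcop'⟩ := hS G q hq c
      have hc := Subgroup.mem_inf.mp hc
      have hcb : c ^ b' ∈ Subgroup.centralizer (N : Set G) := by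
        apply h1 q x (c ^ b') hq hxN hxZ hxo' (N.pow_mem hc.1 _) _ hcop'
        have h3 : Commute c x := mem_cent_singleton.mp hc.2
        exact (h3.pow_left b').symm
      refine ⟨j, ?_⟩
      have h3 : c ^ (q ^ j) = (c ^ b') ^ (q ^ j) := by
        conv_lhs => rw [hab']
        rw [(Commute.pow_pow (Commute.refl c) a' b').mul_pow, ← hj, pow_orderOf_eq_one, one_mul]
      rw [h3, hZmem]
      exact ⟨N.pow_mem (N.pow_mem hc.1 _) _, Subgroup.pow_mem _ hcb _⟩
    have hCbar : IsPGroup q ↥(((N ⊓ Subgroup.centralizer ({x} : Set G)).subgroupOf N).map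
        (QuotientGroup.mk' (Subgroup.center ↥N))) := by
      rintro ⟨y, hy⟩
      obtain ⟨c, hc, rfl⟩ := Subgroup.mem_map.mp hy
      obtain ⟨j, hj⟩ := hCq (c : G) (Subgroup.mem_subgroupOf.mp hc)
      refine ⟨j, ?_⟩
      apply Subtype.ext
      rw [Subgroup.coe_pow, Subgroup.coe_one]
      simp only
      rw [← map_pow, QuotientGroup.mk'_apply, QuotientGroup.eq_one_iff, mem_center_iff_cent,
        Subgroup.coe_pow]
      exact ((hZmem _).mp hj).2
    obtain ⟨Q1, hQ1⟩ := hCbar.exists_le_sylow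
    obtain ⟨T, hT⟩ : ∃ T : Subgroup G, T = ((Q1 : Subgroup (↥N ⧸ Subgroup.center ↥N)).comap
        (QuotientGroup.mk' (Subgroup.center ↥N))).map N.subtype := ⟨_, rfl⟩
    have hTmem : ∀ t : G, t ∈ T ↔ ∃ n : ↥N,
        (QuotientGroup.mk n : ↥N ⧸ Subgroup.center ↥N) ∈ (Q1 : Subgroup _) ∧ (n : G) = t := by
      intro t
      rw [hT, Subgroup.mem_map]
      constructor
      · rintro ⟨n, hn, rfl⟩
        exact ⟨n, Subgroup.mem_comap.mp hn, rfl⟩
      · rintro ⟨n, hn, rfl⟩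
        exact ⟨n, Subgroup.mem_comap.mpr hn, rfl⟩
    have hTN : T ≤ N := by
      intro t ht
      obtain ⟨n, -, rfl⟩ := (hTmem t).mp ht
      exact n.2
    have hCmem : ∀ c : G, ∀ hc : c ∈ N ⊓ Subgroup.centralizer ({x} : Set G),
        (QuotientGroup.mk (⟨c, (Subgroup.mem_inf.mp hc).1⟩ : ↥N) : ↥N ⧸ Subgroup.center ↥N) ∈
          (Q1 : Subgroup _) := by
      intro c hc
      apply hQ1
      exact Subgroup.mem_map.mpr ⟨⟨c, (Subgroup.mem_inf.mp hc).1⟩,
        Subgroup.mem_subgroupOf.mpr hc, rfl⟩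
    have hCT : N ⊓ Subgroup.centralizer ({x} : Set G) ≤ T := by
      intro c hc
      exact (hTmem c).mpr ⟨⟨c, (Subgroup.mem_inf.mp hc).1⟩, hCmem c hc, rfl⟩
    have hTq : ∀ t ∈ T, ∃ k : ℕ, t ^ (q ^ k) ∈ Z := by
      intro t ht
      obtain ⟨n, hn, rfl⟩ := (hTmem t).mp ht
      obtain ⟨j, hj⟩ := Q1.isPGroup' ⟨_, hn⟩
      refine ⟨j, ?_⟩
      have hj' := congrArg Subtype.val hj
      rw [Subgroup.coe_pow, Subgroup.coe_one] at hj'
      simp only at hj'
      rw [← QuotientGroup.mk_pow, QuotientGroup.eq_one_iff, mem_center_iff_cent,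
        Subgroup.coe_pow] at hj'
      rw [hZmem]
      exact ⟨N.pow_mem n.2 _, hj'⟩
    have hTC := key q hq x hxN hxZ hxo T hTN hCT hTq
    -- `Q1` is self-normalizing
    have hQ1n : Subgroup.normalizer ((Q1 : Subgroup (↥N ⧸ Subgroup.center ↥N)) : Set _) =
        (Q1 : Subgroup (↥N ⧸ Subgroup.center ↥N)) := by
      apply le_antisymm
      · intro nbar hnbar
        obtain ⟨n, rfl⟩ := QuotientGroup.mk_surjective nbar
        have h3 : Commute (n : G) x := by
          apply h2 x hxN hxZ hxo n n.2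
          intro c hc hcx
          have hcC : c ∈ N ⊓ Subgroup.centralizer ({x} : Set G) :=
            Subgroup.mem_inf.mpr ⟨hc, mem_cent_singleton.mpr hcx.eq⟩
          have h4 := (Subgroup.mem_normalizer_iff.mp hnbar _).mp (hCmem c hcC)
          have h5 : (n : G) * c * (n : G)⁻¹ ∈ T := by
            refine (hTmem _).mpr ⟨n * ⟨c, hc⟩ * n⁻¹, ?_, rfl⟩
            rw [QuotientGroup.mk_mul, QuotientGroup.mk_mul, QuotientGroup.mk_inv]
            exact h4
          rw [hTC] at h5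
          exact mem_cent_singleton.mp (Subgroup.mem_inf.mp h5).2
        have h6 : (n : G) ∈ T := by
          rw [hTC]; exact Subgroup.mem_inf.mpr ⟨n.2, mem_cent_singleton.mpr h3.eq⟩
        obtain ⟨n', hn', hnn⟩ := (hTmem _).mp h6
        have : n' = n := Subtype.ext hnn
        rw [this] at hn'
        exact hn'
      · exact Subgroup.le_normalizer
    exact sylow_selfnorm_conj Q1 Q hQ1n
  -- Step C
  obtain ⟨x0, hx0N, hx0Z⟩ := SetLike.not_le_iff_exists.mp hcon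
  obtain ⟨r, m, k, hr, hxm, hxo⟩ := hP G (Subgroup.centralizer (N : Set G)) x0 hx0Z
  have hxN : x0 ^ m ∈ N := N.pow_mem hx0N m
  have hTq : ∀ t ∈ N, ∃ k : ℕ, t ^ (q ^ k) ∈ Z := by
    intro t ht
    obtain ⟨j, hj⟩ := hpg (QuotientGroup.mk (⟨t, ht⟩ : ↥N))
    refine ⟨j, ?_⟩
    rw [← QuotientGroup.mk_pow, QuotientGroup.eq_one_iff, mem_center_iff_cent,
      Subgroup.coe_pow] at hj
    rw [hZmem]
    exact ⟨N.pow_mem ht _, hj⟩
  have h3 := key q hq (x0 ^ m) hxN hxm ⟨r, k, hr, hxo⟩ N le_rfl inf_le_left hTq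
  apply hxm
  rw [mem_cent_set]
  intro n hn
  have hn' : n ∈ N ⊓ Subgroup.centralizer ({x0 ^ m} : Set G) := by rw [← h3]; exact hn
  exact mem_cent_singleton.mp (Subgroup.mem_inf.mp hn').2

example (hP : Cfsg.Agent.H43.MC.StPrim.{u}) (hS : Cfsg.Agent.H43.MC.StSplit.{u})
    (hN : Cfsg.Agent.H43.MC.StNCond.{u}) : Cfsg.Agent.H43.MC.StIntP.{u} := intP hP hS hN

end Cfsg.Agent.H15.MC
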