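import Cfsg.Agent.H43.MCDefs
import Cfsg.Agent.S0035
import Cfsg.Agent.H15.MCIntP

set_option autoImplicit false

/-!
# S3905 (helper43), piece XFR
-/

namespace Cfsg.Agent.H15.MC

open Cfsg.Agent.H43.MC

open scoped Pointwise

universe u

theorem xferFr : StXferFr.{u} := by
  intro G _ _ N p r L R hF
  obtain ⟨hp, hr, hZL, hLN, hZR, hRN, hnorm, hint, hprod, hab, hpow, hLZ, hcard, hfpf⟩ := hF
  obtain ⟨π, hπ⟩ : ∃ π : ↥N →* ↥N ⧸ Subgroup.center ↥N,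
      π = QuotientGroup.mk' (Subgroup.center ↥N) := ⟨_, rfl⟩
  have hπs : Function.Surjective π := by rw [hπ]; exact QuotientGroup.mk'_surjective _
  have hπ1 : ∀ n : ↥N, π n = 1 ↔ (n : G) ∈ ZN N := by
    intro n
    rw [hπ, QuotientGroup.mk'_apply, QuotientGroup.eq_one_iff, mem_center_iff_cent, mem_ZN]
    exact ⟨fun h => ⟨n.2, h⟩, fun h => h.2⟩
  have himg : ∀ S : Subgroup G, ZN N ≤ S → ∀ n : ↥N,
      π n ∈ (S.subgroupOf N).map π ↔ (n : G) ∈ S := by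
    intro S hZS n
    rw [Subgroup.mem_map]
    constructor
    · rintro ⟨c, hc, hcn⟩
      have hc' : (c : G) ∈ S := Subgroup.mem_subgroupOf.mp hc
      have h1 : π (c⁻¹ * n) = 1 := by rw [map_mul, map_inv, hcn, inv_mul_cancel]
      have h2 := hZS ((hπ1 _).mp h1)
      have h3 : (n : G) = c * ((c⁻¹ * n : ↥N) : G) := by
        rw [Subgroup.coe_mul, Subgroup.coe_inv]; group
      rw [h3]; exact S.mul_mem hc' h2
    · intro h
      exact ⟨n, Subgroup.mem_subgroupOf.mpr h, rfl⟩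
  obtain ⟨Q, hQ⟩ : ∃ Q : Subgroup (↥N ⧸ Subgroup.center ↥N), Q = (R.subgroupOf N).map π :=
    ⟨_, rfl⟩
  obtain ⟨K, hK⟩ : ∃ K : Subgroup (↥N ⧸ Subgroup.center ↥N), K = (L.subgroupOf N).map π :=
    ⟨_, rfl⟩
  have hQmem : ∀ n : ↥N, π n ∈ Q ↔ (n : G) ∈ R := by
    intro n; rw [hQ]; exact himg R hZR n
  have hKmem : ∀ n : ↥N, π n ∈ K ↔ (n : G) ∈ L := by
    intro n; rw [hK]; exact himg L hZL n
  have hconj : ∀ n t : ↥N, (MulAut.conj (π n))⁻¹ • π t = π (n⁻¹ * t * n) := by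
    intro n t
    rw [map_mul, map_mul, map_inv, ← map_inv, MulAut.smul_def, MulAut.conj_apply, inv_inv]
  -- `Q ≠ ⊥`
  have hRZ : ∃ t ∈ R, t ∉ ZN N := by
    by_contra hcon
    push Not at hcon
    have h0 : R ≤ ZN N := hcon
    have h1 : (ZN N).relIndex R = 1 := Subgroup.relIndex_eq_one.mpr h0
    rw [hcard] at h1
    exact hr.one_lt.ne' h1
  obtain ⟨t0, ht0R, ht0Z⟩ := hRZ
  have hQbot : Q ≠ ⊥ := by
    intro hbot
    have h1 : π ⟨t0, hRN ht0R⟩ ∈ Q := (hQmem _).mpr ht0R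
    rw [hbot, Subgroup.mem_bot, hπ1] at h1
    exact ht0Z h1
  have hQtop : Q ≠ ⊤ := by
    intro htop
    apply hLZ
    intro l hl
    have h1 : π ⟨l, hLN hl⟩ ∈ Q := by rw [htop]; trivial
    exact hint l hl ((hQmem _).mp h1)
  have hTI : ∀ g : ↥N ⧸ Subgroup.center ↥N, g ∉ Q → Q ⊓ (MulAut.conj g • Q) = ⊥ := by
    intro g hg
    obtain ⟨n, rfl⟩ := hπs g
    have hnR : (n : G) ∉ R := fun h => hg ((hQmem n).mpr h)
    obtain ⟨l, hl, c, hc, hn⟩ := hprod n n.2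
    have hlZ : l ∉ ZN N := by
      intro hlz
      apply hnR
      rw [hn]; exact R.mul_mem (hZR hlz) hc
    rw [eq_bot_iff]
    intro tbar htbar
    rw [Subgroup.mem_inf] at htbar
    obtain ⟨ht1, ht2⟩ := htbar
    obtain ⟨t, rfl⟩ := hπs tbar
    have htR : (t : G) ∈ R := (hQmem t).mp ht1
    rw [Subgroup.mem_pointwise_smul_iff_inv_smul_mem, hconj] at ht2
    have ht4 : (n : G)⁻¹ * t * n ∈ R := by
      have h1 := (hQmem _).mp ht2
      simpa using h1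
    have ht5 : l⁻¹ * t * l ∈ R := by
      have h1 : l⁻¹ * (t : G) * l = c * ((n : G)⁻¹ * t * n) * c⁻¹ := by rw [hn]; group
      rw [h1]; exact R.mul_mem (R.mul_mem hc ht4) (R.inv_mem hc)
    have ht6 : (t : G)⁻¹ * l⁻¹ * ((t : G)⁻¹)⁻¹ * l⁻¹⁻¹ ∈ ZN N := by
      apply hint
      · have h1 : (t : G)⁻¹ * l⁻¹ * ((t : G)⁻¹)⁻¹ ∈ L :=
          hnorm _ (N.inv_mem t.2) _ (L.inv_mem hl)
        exact L.mul_mem h1 (L.inv_mem (L.inv_mem hl))
      · have h1 : (t : G)⁻¹ * l⁻¹ * ((t : G)⁻¹)⁻¹ * l⁻¹⁻¹ = (t : G)⁻¹ * (l⁻¹ * t * l) := by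
          group
        rw [h1]; exact R.mul_mem (R.inv_mem htR) ht5
    rw [Subgroup.mem_bot, hπ1]
    by_contra htZ
    have htZ' : (t : G)⁻¹ ∉ ZN N := fun h => htZ (by simpa using (ZN N).inv_mem h)
    have h7 := hfpf _ (R.inv_mem htR) htZ' l⁻¹ (L.inv_mem hl) ht6
    exact hlZ (by simpa using (ZN N).inv_mem h7)
  have hQcard : Nat.card ↥Q = r := by
    rw [hQ, ← Subgroup.relIndex_ker, ← hcard]
    have e : π.ker = (ZN N).subgroupOf N := by
      ext n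
      rw [MonoidHom.mem_ker, hπ1, Subgroup.mem_subgroupOf]
    rw [e, Subgroup.relIndex_subgroupOf hRN]
  have hFC : Cfsg.IsFrobeniusComplement Q := ⟨hQbot, hQtop, hTI⟩
  obtain ⟨K', hK'set, hK'n, hK'c⟩ := Cfsg.Agent.S0035.result Q hFC
  have hKK' : K ≤ K' := by
    intro kbar hk
    obtain ⟨l, rfl⟩ := hπs kbar
    have hlL : (l : G) ∈ L := (hKmem l).mp hk
    have hmem : π l ∈ (K' : Set (↥N ⧸ Subgroup.center ↥N)) := by
      rw [hK'set]
      by_cases h1 : π l = 1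
      · left; exact h1
      · right
        intro g hg
        obtain ⟨n, rfl⟩ := hπs g
        rw [Subgroup.mem_pointwise_smul_iff_inv_smul_mem, hconj] at hg
        have h4 : (n : G)⁻¹ * l * n ∈ R := by simpa using (hQmem _).mp hg
        have h5 : (n : G)⁻¹ * l * n ∈ L := by
          have h := hnorm (n : G)⁻¹ (N.inv_mem n.2) l hlL
          simpa using h
        have h6 := hint _ h5 h4
        have h7 : π (n⁻¹ * l * n) = 1 := (hπ1 _).mpr (by simpa using h6)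
        apply h1
        rw [map_mul, map_mul, map_inv] at h7
        have h8 : π l = π n * ((π n)⁻¹ * π l * π n) * (π n)⁻¹ := by group
        rw [h8, h7]; group
    exact hmem
  have hK'K : K' ≤ K := by
    intro xbar hx
    obtain ⟨n, rfl⟩ := hπs xbar
    obtain ⟨l, hl, c, hc, hn⟩ := hprod n n.2
    have hlK : π ⟨l, hLN hl⟩ ∈ K := (hKmem _).mpr hl
    have hcQ : π ⟨c, hRN hc⟩ ∈ Q := (hQmem _).mpr hc
    have hnlc : n = ⟨l, hLN hl⟩ * ⟨c, hRN hc⟩ := Subtype.ext hn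
    have hcK' : π ⟨c, hRN hc⟩ ∈ K' := by
      have h1 : π ⟨c, hRN hc⟩ = (π ⟨l, hLN hl⟩)⁻¹ * π n := by rw [hnlc, map_mul]; group
      rw [h1]; exact K'.mul_mem (K'.inv_mem (hKK' hlK)) hx
    have hc1 : π ⟨c, hRN hc⟩ = 1 := by
      have hdisj := hK'c.disjoint
      have h1 : π ⟨c, hRN hc⟩ ∈ K' ⊓ Q := Subgroup.mem_inf.mpr ⟨hcK', hcQ⟩
      rw [hdisj.eq_bot] at h1
      exact Subgroup.mem_bot.mp h1
    rw [hnlc, map_mul, hc1, mul_one]; exact hlK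
  have hKeq : K = K' := le_antisymm hKK' hK'K
  refine ⟨Q, K, p, hp, hFC, by rw [hQcard]; exact hr, by rw [hKeq]; exact hK'n,
    by rw [hKeq]; exact hK'set, ?_, ?_⟩
  · refine ⟨⟨?_⟩⟩
    rintro ⟨a, ha⟩ ⟨b, hb⟩
    obtain ⟨l1, rfl⟩ := hπs a
    obtain ⟨l2, rfl⟩ := hπs b
    apply Subtype.ext
    show π l1 * π l2 = π l2 * π l1
    rw [← map_mul, ← map_mul]
    congr 1
    apply Subtype.ext
    exact hab _ ((hKmem l1).mp ha) _ ((hKmem l2).mp hb)
  · intro a ha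
    obtain ⟨l, rfl⟩ := hπs a
    rw [← map_pow, hπ1, Subgroup.coe_pow]
    exact hpow _ ((hKmem l).mp ha)

example : Cfsg.Agent.H43.MC.StXferFr.{u} := xferFr

end Cfsg.Agent.H15.MC
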