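import Cfsg.Agent.H87.RedDefs
import Cfsg.Agent.H88.PPower

set_option autoImplicit false

/-!
S5202 project, piece AUTT: for a saturated subsystem `F''` of `p`-power index in `F` over the
subgroup `actSub S T K'` of `S` acting on the strongly closed subgroup `T` through `K'`, where
`K'` contains all elements of `Aut_F(T)` of order prime to `p`, one has `Aut_{F''}(T) = K'`.
-/

namespace Cfsg.Agent.H15.Red

open Cfsg Cfsg.FusionSystem Cfsg.Agent.H86 Cfsg.Agent.H87

universe u

variable {Ω : Type u} [Group Ω] {S T : Subgroup Ω}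

/-- A strongly closed subgroup is its only conjugate. -/
theorem isConj_eq_of_sc [Finite S] {F : FusionSystem S} {T Q : Subgroup Ω}
    (hT : F.StronglyClosed T) (h : F.IsConj T Q) : Q = T := by
  haveI : Finite T := finite_of_le hT.1
  have hcard := isConj_card h
  obtain ⟨φ, hφ, rfl⟩ := h
  refine Subgroup.eq_of_le_of_card_ge ?_ hcard.ge
  rintro _ ⟨x, rfl⟩
  exact hT.2 T le_rfl φ hφ x

theorem fullyNormalized_of_sc [Finite S] {F : FusionSystem S} {T : Subgroup Ω}
    (hT : F.StronglyClosed T) : F.IsFullyNormalized T :=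
  ⟨hT.1, fun Q hQ => by rw [isConj_eq_of_sc hT hQ]⟩

theorem autGroup_pPow [Finite S] {p : ℕ} [Fact p.Prime] (hS : IsPGroup p S)
    {F : FusionSystem S} (hF : F.IsSaturated p) {T : Subgroup Ω} (hT : F.StronglyClosed T)
    {S'' : Subgroup Ω} {F'' : FusionSystem S''} (hF'' : F''.IsSaturated p)
    (hidx : F''.HasPPowerIndexIn F p) {K' : Subgroup (MulAut T)} (hK' : K' ≤ F.autGroup T)
    (hK'n : ∀ a ∈ F.autGroup T, ∀ k ∈ K', a * k * a⁻¹ ∈ K')
    (hres : ∀ a ∈ F.autGroup T, (orderOf a).Coprime p → a ∈ K')
    (hS'' : S'' = actSub S T K') (hTS'' : T ≤ S'') : F''.autGroup T = K' := by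
  have hS''S : S'' ≤ S := by rw [hS'']; exact actSub_le S T K'
  have : Finite S'' := finite_of_le hS''S
  have hS''p : IsPGroup p S'' := hS.to_le hS''S
  haveI : Finite T := finite_of_le hT.1
  haveI : Finite (MulAut T) := Finite.of_injective (fun α : MulAut T => (α : T → T))
    (fun α β h => MulEquiv.ext (fun x => congrFun h x))
  -- `T` is strongly closed in `F''`
  have hT'' : F''.StronglyClosed T :=
    ⟨hTS'', fun R hR φ hφ x => hT.2 R hR φ (hidx.1 R hφ) x⟩
  -- `Aut_{F''}(T) ≤ Aut_F(T)`
  have hle : F''.autGroup T ≤ F.autGroup T := by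
    unfold FusionSystem.autGroup
    apply Subgroup.closure_mono
    intro α hα
    exact hidx.1 T hα
  -- fully automized
  obtain ⟨-, R, hR⟩ := (saturated_fullyNormalized hS hF
    (fullyNormalized_of_sc hT)).2
  obtain ⟨-, R'', hR''⟩ := (saturated_fullyNormalized hS''p hF''
    (fullyNormalized_of_sc hT'')).2
  apply le_antisymm
  · -- `Aut_{F''}(T) ≤ K'`
    have hsup := Cfsg.Agent.H88.pResidual_sup_sylow p R''
    have h1 : pResidual p (F''.autGroup T) ≤ K'.subgroupOf (F''.autGroup T) := by
      unfold pResidual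
      rw [Subgroup.closure_le]
      intro g hg
      rw [SetLike.mem_coe, Subgroup.mem_subgroupOf]
      apply hres _ (hle g.2)
      rw [Subgroup.orderOf_coe]
      exact hg
    have h2 : (R'' : Subgroup (F''.autGroup T)) ≤ K'.subgroupOf (F''.autGroup T) := by
      intro r hr
      rw [hR'', Subgroup.mem_subgroupOf] at hr
      rw [Subgroup.mem_subgroupOf]
      obtain ⟨g, hg, H⟩ := (mem_autInducedBy_iff S'' T _).1 hr
      rw [hS''] at hg
      obtain ⟨-, k, hk, hkg⟩ := hg
      have : (r : MulAut T) = k := by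
        apply MulEquiv.ext
        intro t
        apply Subtype.ext
        rw [H, hkg]
      rw [this]
      exact hk
    have h3 : (⊤ : Subgroup (F''.autGroup T)) ≤ K'.subgroupOf (F''.autGroup T) := by
      rw [← hsup]
      exact sup_le h1 h2
    intro a ha
    have := h3 (Subgroup.mem_top (⟨a, ha⟩ : F''.autGroup T))
    rw [Subgroup.mem_subgroupOf] at this
    exact this
  · -- `K' ≤ Aut_{F''}(T)`
    intro k hk
    have hkA : k ∈ F.autGroup T := hK' hk
    have hsup := Cfsg.Agent.H88.pResidual_sup_sylow p R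
    haveI : (pResidual p (F.autGroup T)).Normal :=
      ⟨fun n hn g => Cfsg.Agent.H88.pResidual_conj_mem p hn g⟩
    have hmem : (⟨k, hkA⟩ : F.autGroup T) ∈
        ((pResidual p (F.autGroup T) ⊔ (R : Subgroup (F.autGroup T)) :
          Subgroup (F.autGroup T)) : Set (F.autGroup T)) := by
      rw [hsup]
      exact Subgroup.mem_top _
    rw [Subgroup.normal_mul, Set.mem_mul] at hmem
    obtain ⟨n, hn, r, hr, hnr⟩ := hmem
    have hnK : (n : MulAut T) ∈ K' := by
      have h1 : pResidual p (F.autGroup T) ≤ K'.subgroupOf (F.autGroup T) := by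
        unfold pResidual
        rw [Subgroup.closure_le]
        intro g hg
        rw [SetLike.mem_coe, Subgroup.mem_subgroupOf]
        apply hres _ g.2
        rw [Subgroup.orderOf_coe]
        exact hg
      have := h1 hn
      rw [Subgroup.mem_subgroupOf] at this
      exact this
    have hnF : (n : MulAut T) ∈ F''.autGroup T :=
      hidx.2.2 T hTS'' (Subgroup.mem_map_of_mem _ hn)
    have hkeq : k = (n : MulAut T) * (r : MulAut T) := by
      have := congrArg Subtype.val hnr
      rw [Subgroup.coe_mul] at this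
      exact this.symm
    have hrK : (r : MulAut T) ∈ K' := by
      have : (r : MulAut T) = (n : MulAut T)⁻¹ * k := by
        rw [hkeq, inv_mul_cancel_left]
      rw [this]
      exact K'.mul_mem (K'.inv_mem hnK) hk
    have hrF : (r : MulAut T) ∈ F''.autGroup T := by
      have hr' : r ∈ (R : Subgroup (F.autGroup T)) := hr
      rw [hR, Subgroup.mem_subgroupOf] at hr'
      obtain ⟨g, hg, H⟩ := (mem_autInducedBy_iff S T _).1 hr'
      have hg'' : g ∈ S'' := by
        rw [hS'']
        exact ⟨hg, (r : MulAut T), hrK, H⟩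
      exact autInducedBy_le_autGroup F'' hTS''
        ((mem_autInducedBy_iff S'' T _).2 ⟨g, hg'', H⟩)
    rw [hkeq]
    exact (F''.autGroup T).mul_mem hnF hrF

end Cfsg.Agent.H15.Red
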