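import Mathlib
import Cfsg.Agent.H88.StNDefs
import Cfsg.Agent.H14.StUW
import Cfsg.Agent.H15.StNElt

/-!
# S2549-W (team piece for helper88)

The Weyl group `WN m` (type `B_m`, acting on the positions `Fin (2 * m + 2)` with the two middle
positions fixed): sign character, longest element, compatibility with `Fin.rev`.
-/

set_option autoImplicit false

namespace Cfsg.Agent.H15.StN

open Cfsg.Agent.H88.StN Cfsg.Agent.H88.StU Cfsg.Agent.H14.StU

theorem pr_eq_pE (m : ℕ) (k : Fin m) (h : k.val < (2 * m + 2) / 2) :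
    pr (2 * m + 2) ⟨k.val, h⟩ = pE m k := rfl

theorem pr_rev_eq_pF (m : ℕ) (k : Fin m) (h : k.val < (2 * m + 2) / 2) :
    (pr (2 * m + 2) ⟨k.val, h⟩).rev = pF m k := by
  apply Fin.ext
  rw [Fin.val_rev, pr_val]
  simp only [pF]
  omega

theorem pr_eq_pZ (m : ℕ) (h : m < (2 * m + 2) / 2) : pr (2 * m + 2) ⟨m, h⟩ = pZ m 0 := by
  apply Fin.ext
  simp [pr, pZ]

theorem pr_rev_eq_pZ (m : ℕ) (h : m < (2 * m + 2) / 2) :
    (pr (2 * m + 2) ⟨m, h⟩).rev = pZ m 1 := by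
  apply Fin.ext
  rw [Fin.val_rev, pr_val]
  simp only [pZ, Fin.val_one]
  omega

theorem sS_eq_sref (m : ℕ) (k : Fin m) (hk : k.val + 1 < m) (h : k.val < (2 * m + 2) / 2) :
    sS m k hk = sref (2 * m + 2) ⟨k.val, h⟩ := by
  have hk2 : k.val + 1 < (2 * m + 2) / 2 := by omega
  rw [sref_step (2 * m + 2) ⟨k.val, h⟩ hk2]
  have e1 : pr (2 * m + 2) ⟨k.val, h⟩ = pE m k := rfl
  have e2 : pr (2 * m + 2) ⟨k.val + 1, hk2⟩ = pE m ⟨k.val + 1, hk⟩ := rfl
  have e3 : (pr (2 * m + 2) ⟨k.val + 1, hk2⟩).rev = pF m ⟨k.val + 1, hk⟩ :=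
    pr_rev_eq_pF m ⟨k.val + 1, hk⟩ hk2
  have e4 : (pr (2 * m + 2) ⟨k.val, h⟩).rev = pF m k := pr_rev_eq_pF m k h
  show _ = Equiv.swap (pr (2 * m + 2) ⟨k.val, h⟩) (pr (2 * m + 2) ⟨k.val + 1, hk2⟩) *
    Equiv.swap (pr (2 * m + 2) ⟨k.val + 1, hk2⟩).rev (pr (2 * m + 2) ⟨k.val, h⟩).rev
  rw [e3, e4, e1, e2]
  rfl

theorem sT_eq_swap (m : ℕ) (k : Fin m) (h : k.val < (2 * m + 2) / 2) :
    sT m k = Equiv.swap (pr (2 * m + 2) ⟨k.val, h⟩) (pr (2 * m + 2) ⟨k.val, h⟩).rev := by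
  rw [pr_rev_eq_pF m k h]
  rfl

theorem wn_le_wu (m : ℕ) : WN m ≤ WU (2 * m + 2) := by
  unfold WN
  rw [Subgroup.closure_le]
  rintro s (⟨k, hk, rfl⟩ | ⟨k, hk, rfl⟩)
  · have h : k.val < (2 * m + 2) / 2 := by omega
    rw [sS_eq_sref m k hk h]
    exact Subgroup.subset_closure ⟨_, rfl⟩
  · have h : k.val < (2 * m + 2) / 2 := by omega
    rw [sT_eq_swap m k h]
    exact tswap_mem (2 * m + 2) 1 ⟨k.val, h⟩ (by show k.val + 1 + 1 = (2 * m + 2) / 2; omega)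

theorem sT_conj (m : ℕ) (k : Fin m) (hk : k.val + 1 = m) (h : k.val < (2 * m + 2) / 2)
    (h' : m < (2 * m + 2) / 2) :
    sT m k = sref (2 * m + 2) ⟨k.val, h⟩ * sref (2 * m + 2) ⟨m, h'⟩ *
      (sref (2 * m + 2) ⟨k.val, h⟩)⁻¹ := by
  have hk2 : k.val + 1 < (2 * m + 2) / 2 := by omega
  have hlast : ¬ ((⟨m, h'⟩ : Fin ((2 * m + 2) / 2)).val + 1 < (2 * m + 2) / 2) := by
    simp only
    omega
  have hm : (⟨k.val + 1, hk2⟩ : Fin ((2 * m + 2) / 2)) = ⟨m, h'⟩ := Fin.ext hk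
  have h1 : sref (2 * m + 2) ⟨k.val, h⟩ (pr (2 * m + 2) ⟨k.val + 1, hk2⟩) =
      pr (2 * m + 2) ⟨k.val, h⟩ := by
    rw [sref_step (2 * m + 2) ⟨k.val, h⟩ hk2, Equiv.Perm.mul_apply,
      Equiv.swap_apply_of_ne_of_ne (pr_ne_rev _ _ _) (pr_ne_rev _ _ _),
      Equiv.swap_apply_right]
  have h2 : sref (2 * m + 2) ⟨k.val, h⟩ (pr (2 * m + 2) ⟨k.val + 1, hk2⟩).rev =
      (pr (2 * m + 2) ⟨k.val, h⟩).rev := by
    rw [sref_apply_rev, h1]
  rw [sT_eq_swap m k h, sref_last (2 * m + 2) ⟨m, h'⟩ hlast, ← hm, ← Equiv.swap_apply_apply,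
    h1, h2]

theorem exists_wn_sign (m : ℕ) : ∃ ε : WN m →* ℤˣ,
    (∀ (k : Fin m) (hk : k.val + 1 < m) (h : sS m k hk ∈ WN m), ε ⟨sS m k hk, h⟩ = -1) ∧
    (∀ (k : Fin m) (_ : k.val + 1 = m) (h : sT m k ∈ WN m), ε ⟨sT m k, h⟩ = -1) := by
  obtain ⟨ε, hε⟩ := exists_wu_sign (2 * m + 2)
  refine ⟨ε.comp (Subgroup.inclusion (wn_le_wu m)), ?_, ?_⟩
  · intro k hk h
    have hk1 : k.val < (2 * m + 2) / 2 := by omega
    have e : Subgroup.inclusion (wn_le_wu m) ⟨sS m k hk, h⟩ =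
        ⟨sref (2 * m + 2) ⟨k.val, hk1⟩, Subgroup.subset_closure ⟨_, rfl⟩⟩ :=
      Subtype.ext (sS_eq_sref m k hk hk1)
    rw [MonoidHom.comp_apply, e]
    exact hε _
  · intro k hk h
    have hk1 : k.val < (2 * m + 2) / 2 := by omega
    have hm1 : m < (2 * m + 2) / 2 := by omega
    have e : Subgroup.inclusion (wn_le_wu m) ⟨sT m k, h⟩ =
        (⟨sref (2 * m + 2) ⟨k.val, hk1⟩, Subgroup.subset_closure ⟨_, rfl⟩⟩ : WU (2 * m + 2)) *
          ⟨sref (2 * m + 2) ⟨m, hm1⟩, Subgroup.subset_closure ⟨_, rfl⟩⟩ *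
          (⟨sref (2 * m + 2) ⟨k.val, hk1⟩, Subgroup.subset_closure ⟨_, rfl⟩⟩ : WU (2 * m + 2))⁻¹ :=
      Subtype.ext (sT_conj m k hk hk1 hm1)
    rw [MonoidHom.comp_apply, e, map_mul, map_mul, map_inv, hε, hε]
    rfl

theorem sS_mem (m : ℕ) (k : Fin m) (hk : k.val + 1 < m) : sS m k hk ∈ WN m :=
  Subgroup.subset_closure (Or.inl ⟨k, hk, rfl⟩)

/-- All the flips `e_k ↔ f_k` lie in the Weyl group. -/
theorem sT_mem (m : ℕ) : ∀ (d : ℕ) (k : Fin m), k.val + d + 1 = m → sT m k ∈ WN m := by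
  intro d
  induction d with
  | zero =>
    intro k hk
    exact Subgroup.subset_closure (Or.inr ⟨k, by omega, rfl⟩)
  | succ d ih =>
    intro k hk
    have hk1 : k.val + 1 < m := by omega
    have hs := sS_mem m k hk1
    have hj := ih ⟨k.val + 1, hk1⟩ (by simp only; omega)
    have hkk : k ≠ (⟨k.val + 1, hk1⟩ : Fin m) := by
      intro h
      have h1 := congrArg Fin.val h
      simp at h1
    have h1 : sS m k hk1 (pE m ⟨k.val + 1, hk1⟩) = pE m k := by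
      unfold sS
      rw [Equiv.Perm.mul_apply, Equiv.swap_apply_of_ne_of_ne (pE_ne_pF m _ _) (pE_ne_pF m _ _),
        Equiv.swap_apply_right]
    have h2 : sS m k hk1 (pF m ⟨k.val + 1, hk1⟩) = pF m k := by
      unfold sS
      rw [Equiv.Perm.mul_apply, Equiv.swap_apply_left,
        Equiv.swap_apply_of_ne_of_ne (pE_ne_pF m _ _).symm (pE_ne_pF m _ _).symm]
    have e : sT m k = sS m k hk1 * sT m ⟨k.val + 1, hk1⟩ * (sS m k hk1)⁻¹ := by
      unfold sT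
      rw [← Equiv.swap_apply_apply, h1, h2]
    rw [e]
    exact mul_mem (mul_mem hs hj) (inv_mem hs)

theorem Rrev_mem_wn (m : ℕ) : ∀ j : ℕ, j ≤ m → Rrev (2 * m + 2) j ∈ WN m := by
  intro j
  induction j with
  | zero =>
    intro _
    exact one_mem _
  | succ j ih =>
    intro hj
    rw [Rrev_succ]
    have hj1 : j < (2 * m + 2) / 2 := by omega
    rw [dif_pos hj1]
    refine mul_mem ?_ (ih (by omega))
    have e := sT_eq_swap m ⟨j, by omega⟩ hj1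
    rw [← e]
    exact sT_mem m (m - 1 - j) ⟨j, by omega⟩ (by simp only; omega)

theorem wl_mem (m : ℕ) : wl m ∈ WN m := by
  have h : wl m = Rrev (2 * m + 2) m := by
    apply Equiv.ext
    intro c
    rw [Rrev_apply (2 * m + 2) m (by omega) c]
    have hcl := c.isLt
    show Fin.rev (Equiv.swap (pZ m 0) (pZ m 1) c) = _
    by_cases hc : c.val < m ∨ 2 * m + 2 - (c.val + 1) < m
    · rw [if_pos hc, Equiv.swap_apply_of_ne_of_ne]
      · intro h
        have h1 := congrArg Fin.val h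
        simp only [pZ, Fin.val_zero] at h1
        omega
      · intro h
        have h1 := congrArg Fin.val h
        simp only [pZ, Fin.val_one] at h1
        omega
    · rw [if_neg hc]
      by_cases h0 : c.val = m
      · have hc0 : c = pZ m 0 := Fin.ext (by simp only [pZ, Fin.val_zero]; omega)
        rw [hc0, Equiv.swap_apply_left]
        apply Fin.ext
        rw [Fin.val_rev]
        simp only [pZ, Fin.val_zero, Fin.val_one]
        omega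
      · have hc1 : c = pZ m 1 := Fin.ext (by simp only [pZ, Fin.val_one]; omega)
        rw [hc1, Equiv.swap_apply_right]
        apply Fin.ext
        rw [Fin.val_rev]
        simp only [pZ, Fin.val_zero, Fin.val_one]
        omega
  rw [h]
  exact Rrev_mem_wn m m le_rfl

theorem wn_fix (m : ℕ) (w : Equiv.Perm (Fin (2 * m + 2))) (hw : w ∈ WN m) :
    w (pZ m 0) = pZ m 0 ∧ w (pZ m 1) = pZ m 1 ∧ ∀ c, w (Fin.rev c) = Fin.rev (w c) := by
  have key : ∀ w ∈ WN m, ∀ j : Fin 2, w (pZ m j) = pZ m j := by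
    intro w hw
    refine Subgroup.closure_induction (p := fun w _ => ∀ j : Fin 2, w (pZ m j) = pZ m j)
      ?_ ?_ ?_ ?_ hw
    · rintro s (⟨k, hk, rfl⟩ | ⟨k, hk, rfl⟩) j
      · unfold sS
        rw [Equiv.Perm.mul_apply,
          Equiv.swap_apply_of_ne_of_ne (pF_ne_pZ m _ _).symm (pF_ne_pZ m _ _).symm,
          Equiv.swap_apply_of_ne_of_ne (pE_ne_pZ m _ _).symm (pE_ne_pZ m _ _).symm]
      · unfold sT
        rw [Equiv.swap_apply_of_ne_of_ne (pE_ne_pZ m _ _).symm (pF_ne_pZ m _ _).symm]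
    · intro j
      rfl
    · intro x y _ _ hx hy j
      rw [Equiv.Perm.mul_apply, hy, hx]
    · intro x _ hx j
      rw [Equiv.Perm.inv_eq_iff_eq, hx]
  exact ⟨key w hw 0, key w hw 1, fun c => wu_rev (2 * m + 2) w (wn_le_wu m hw) c⟩

end Cfsg.Agent.H15.StN

section verbatim
open Matrix Cfsg.Agent.H88.StN
example (m : ℕ) : ∃ ε : WN m →* ℤˣ, (∀ (k : Fin m) (hk : k.val + 1 < m) (h : sS m k hk ∈ WN m), ε ⟨sS m k hk, h⟩ = -1) ∧ (∀ (k : Fin m) (_ : k.val + 1 = m) (h : sT m k ∈ WN m), ε ⟨sT m k, h⟩ = -1) := Cfsg.Agent.H15.StN.exists_wn_sign m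
example (m : ℕ) : wl m ∈ WN m := Cfsg.Agent.H15.StN.wl_mem m
example (m : ℕ) (w : Equiv.Perm (Fin (2 * m + 2))) (hw : w ∈ WN m) : w (pZ m 0) = pZ m 0 ∧ w (pZ m 1) = pZ m 1 ∧ ∀ c, w (Fin.rev c) = Fin.rev (w c) := Cfsg.Agent.H15.StN.wn_fix m w hw
end verbatim
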