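import Mathlib
import Cfsg.Agent.H9.XPDefs

/-!
# XP-CENT (helper15, for helper9's S5746 project XP)

A matrix commuting with the 315 matrices `mu k` and preserving the alternating form `Jm` is the
identity.  Only the five zero-one matrices `mu 0`, `mu 35`, `mu 56`, `mu 96`, `mu 121` are used:
35 entries of their commutation relations already force `M` to be scalar (a Gaussian elimination
certificate over the prime field, generated offline), and then `l * l = 1` gives `l = 1`.
-/

set_option autoImplicit false
set_option maxRecDepth 100000

namespace Cfsg.Agent.H15.XP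

open Cfsg.Agent.H9.PG Cfsg.Agent.H9.XP
open Cfsg.Agent.H94.HS (F4)
open scoped Matrix

/-- an entry of a commutation relation, with the entries of `X` named -/
theorem key_ent15 (M X : Matrix (Fin 6) (Fin 6) K4) (h : M * X = X * M) (i j : Fin 6)
    (c0 c1 c2 c3 c4 c5 r0 r1 r2 r3 r4 r5 : K4)
    (hc0 : X 0 j = c0) (hc1 : X 1 j = c1) (hc2 : X 2 j = c2) (hc3 : X 3 j = c3)
    (hc4 : X 4 j = c4) (hc5 : X 5 j = c5)
    (hr0 : X i 0 = r0) (hr1 : X i 1 = r1) (hr2 : X i 2 = r2) (hr3 : X i 3 = r3)
    (hr4 : X i 4 = r4) (hr5 : X i 5 = r5) :
    M i 0 * c0 + M i 1 * c1 + M i 2 * c2 + M i 3 * c3 + M i 4 * c4 + M i 5 * c5 =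
      r0 * M 0 j + r1 * M 1 j + r2 * M 2 j + r3 * M 3 j + r4 * M 4 j + r5 * M 5 j := by
  have e := congrFun (congrFun h i) j
  rw [Matrix.mul_apply, Matrix.mul_apply, Fin.sum_univ_six, Fin.sum_univ_six] at e
  rw [← hc0, ← hc1, ← hc2, ← hc3, ← hc4, ← hc5, ← hr0, ← hr1, ← hr2, ← hr3, ← hr4, ← hr5]
  exact e

theorem two_eq_zero15 : (2 : K4) = 0 := by
  rw [← one_add_one_eq_two]; rfl

/-- XP-CENT -/
theorem centJ : StCentJ := by
  intro M h hJ
  have h2 : (2 : K4) = 0 := two_eq_zero15
  have e0 := key_ent15 M (mu 0) (h 0 (by norm_num)) 0 2 0 1 1 0 0 0 1 0 0 0 0 0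
      (by decide +kernel) (by decide +kernel) (by decide +kernel) (by decide +kernel)
      (by decide +kernel) (by decide +kernel) (by decide +kernel) (by decide +kernel)
      (by decide +kernel) (by decide +kernel) (by decide +kernel) (by decide +kernel)
  have e1 := key_ent15 M (mu 0) (h 0 (by norm_num)) 0 4 0 0 0 0 1 1 1 0 0 0 0 0
      (by decide +kernel) (by decide +kernel) (by decide +kernel) (by decide +kernel)
      (by decide +kernel) (by decide +kernel) (by decide +kernel) (by decide +kernel)
      (by decide +kernel) (by decide +kernel) (by decide +kernel) (by decide +kernel)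
  have e2 := key_ent15 M (mu 0) (h 0 (by norm_num)) 1 0 1 0 0 0 0 0 0 1 1 0 0 0
      (by decide +kernel) (by decide +kernel) (by decide +kernel) (by decide +kernel)
      (by decide +kernel) (by decide +kernel) (by decide +kernel) (by decide +kernel)
      (by decide +kernel) (by decide +kernel) (by decide +kernel) (by decide +kernel)
  have e3 := key_ent15 M (mu 0) (h 0 (by norm_num)) 1 1 0 1 0 0 0 0 0 1 1 0 0 0
      (by decide +kernel) (by decide +kernel) (by decide +kernel) (by decide +kernel)
      (by decide +kernel) (by decide +kernel) (by decide +kernel) (by decide +kernel)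
      (by decide +kernel) (by decide +kernel) (by decide +kernel) (by decide +kernel)
  have e4 := key_ent15 M (mu 0) (h 0 (by norm_num)) 1 2 0 1 1 0 0 0 0 1 1 0 0 0
      (by decide +kernel) (by decide +kernel) (by decide +kernel) (by decide +kernel)
      (by decide +kernel) (by decide +kernel) (by decide +kernel) (by decide +kernel)
      (by decide +kernel) (by decide +kernel) (by decide +kernel) (by decide +kernel)
  have e5 := key_ent15 M (mu 0) (h 0 (by norm_num)) 1 3 0 0 0 1 0 0 0 1 1 0 0 0
      (by decide +kernel) (by decide +kernel) (by decide +kernel) (by decide +kernel)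
      (by decide +kernel) (by decide +kernel) (by decide +kernel) (by decide +kernel)
      (by decide +kernel) (by decide +kernel) (by decide +kernel) (by decide +kernel)
  have e7 := key_ent15 M (mu 0) (h 0 (by norm_num)) 1 5 0 0 0 0 0 1 0 1 1 0 0 0
      (by decide +kernel) (by decide +kernel) (by decide +kernel) (by decide +kernel)
      (by decide +kernel) (by decide +kernel) (by decide +kernel) (by decide +kernel)
      (by decide +kernel) (by decide +kernel) (by decide +kernel) (by decide +kernel)
  have e10 := key_ent15 M (mu 0) (h 0 (by norm_num)) 3 2 0 1 1 0 0 0 0 0 0 1 0 0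
      (by decide +kernel) (by decide +kernel) (by decide +kernel) (by decide +kernel)
      (by decide +kernel) (by decide +kernel) (by decide +kernel) (by decide +kernel)
      (by decide +kernel) (by decide +kernel) (by decide +kernel) (by decide +kernel)
  have e11 := key_ent15 M (mu 0) (h 0 (by norm_num)) 3 4 0 0 0 0 1 1 0 0 0 1 0 0
      (by decide +kernel) (by decide +kernel) (by decide +kernel) (by decide +kernel)
      (by decide +kernel) (by decide +kernel) (by decide +kernel) (by decide +kernel)
      (by decide +kernel) (by decide +kernel) (by decide +kernel) (by decide +kernel)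
  have e12 := key_ent15 M (mu 0) (h 0 (by norm_num)) 4 2 0 1 1 0 0 0 0 0 0 0 1 0
      (by decide +kernel) (by decide +kernel) (by decide +kernel) (by decide +kernel)
      (by decide +kernel) (by decide +kernel) (by decide +kernel) (by decide +kernel)
      (by decide +kernel) (by decide +kernel) (by decide +kernel) (by decide +kernel)
  have e13 := key_ent15 M (mu 0) (h 0 (by norm_num)) 4 4 0 0 0 0 1 1 0 0 0 0 1 0
      (by decide +kernel) (by decide +kernel) (by decide +kernel) (by decide +kernel)
      (by decide +kernel) (by decide +kernel) (by decide +kernel) (by decide +kernel)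
      (by decide +kernel) (by decide +kernel) (by decide +kernel) (by decide +kernel)
  have e14 := key_ent15 M (mu 0) (h 0 (by norm_num)) 5 0 1 0 0 0 0 0 0 0 0 0 1 1
      (by decide +kernel) (by decide +kernel) (by decide +kernel) (by decide +kernel)
      (by decide +kernel) (by decide +kernel) (by decide +kernel) (by decide +kernel)
      (by decide +kernel) (by decide +kernel) (by decide +kernel) (by decide +kernel)
  have e17 := key_ent15 M (mu 0) (h 0 (by norm_num)) 5 3 0 0 0 1 0 0 0 0 0 0 1 1
      (by decide +kernel) (by decide +kernel) (by decide +kernel) (by decide +kernel)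
      (by decide +kernel) (by decide +kernel) (by decide +kernel) (by decide +kernel)
      (by decide +kernel) (by decide +kernel) (by decide +kernel) (by decide +kernel)
  have e18 := key_ent15 M (mu 0) (h 0 (by norm_num)) 5 4 0 0 0 0 1 1 0 0 0 0 1 1
      (by decide +kernel) (by decide +kernel) (by decide +kernel) (by decide +kernel)
      (by decide +kernel) (by decide +kernel) (by decide +kernel) (by decide +kernel)
      (by decide +kernel) (by decide +kernel) (by decide +kernel) (by decide +kernel)
  have e20 := key_ent15 M (mu 35) (h 35 (by norm_num)) 0 1 0 1 1 0 0 0 1 0 0 0 0 0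
      (by decide +kernel) (by decide +kernel) (by decide +kernel) (by decide +kernel)
      (by decide +kernel) (by decide +kernel) (by decide +kernel) (by decide +kernel)
      (by decide +kernel) (by decide +kernel) (by decide +kernel) (by decide +kernel)
  have e21 := key_ent15 M (mu 35) (h 35 (by norm_num)) 0 5 0 0 0 0 1 1 1 0 0 0 0 0
      (by decide +kernel) (by decide +kernel) (by decide +kernel) (by decide +kernel)
      (by decide +kernel) (by decide +kernel) (by decide +kernel) (by decide +kernel)
      (by decide +kernel) (by decide +kernel) (by decide +kernel) (by decide +kernel)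
  have e22 := key_ent15 M (mu 35) (h 35 (by norm_num)) 1 1 0 1 1 0 0 0 0 1 0 0 0 0
      (by decide +kernel) (by decide +kernel) (by decide +kernel) (by decide +kernel)
      (by decide +kernel) (by decide +kernel) (by decide +kernel) (by decide +kernel)
      (by decide +kernel) (by decide +kernel) (by decide +kernel) (by decide +kernel)
  have e23 := key_ent15 M (mu 35) (h 35 (by norm_num)) 1 5 0 0 0 0 1 1 0 1 0 0 0 0
      (by decide +kernel) (by decide +kernel) (by decide +kernel) (by decide +kernel)
      (by decide +kernel) (by decide +kernel) (by decide +kernel) (by decide +kernel)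
      (by decide +kernel) (by decide +kernel) (by decide +kernel) (by decide +kernel)
  have e24 := key_ent15 M (mu 35) (h 35 (by norm_num)) 2 0 1 0 0 0 0 0 0 1 1 0 0 0
      (by decide +kernel) (by decide +kernel) (by decide +kernel) (by decide +kernel)
      (by decide +kernel) (by decide +kernel) (by decide +kernel) (by decide +kernel)
      (by decide +kernel) (by decide +kernel) (by decide +kernel) (by decide +kernel)
  have e27 := key_ent15 M (mu 35) (h 35 (by norm_num)) 2 3 0 0 0 1 0 0 0 1 1 0 0 0
      (by decide +kernel) (by decide +kernel) (by decide +kernel) (by decide +kernel)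
      (by decide +kernel) (by decide +kernel) (by decide +kernel) (by decide +kernel)
      (by decide +kernel) (by decide +kernel) (by decide +kernel) (by decide +kernel)
  have e30 := key_ent15 M (mu 35) (h 35 (by norm_num)) 3 1 0 1 1 0 0 0 0 0 0 1 0 0
      (by decide +kernel) (by decide +kernel) (by decide +kernel) (by decide +kernel)
      (by decide +kernel) (by decide +kernel) (by decide +kernel) (by decide +kernel)
      (by decide +kernel) (by decide +kernel) (by decide +kernel) (by decide +kernel)
  have e31 := key_ent15 M (mu 35) (h 35 (by norm_num)) 3 5 0 0 0 0 1 1 0 0 0 1 0 0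
      (by decide +kernel) (by decide +kernel) (by decide +kernel) (by decide +kernel)
      (by decide +kernel) (by decide +kernel) (by decide +kernel) (by decide +kernel)
      (by decide +kernel) (by decide +kernel) (by decide +kernel) (by decide +kernel)
  have e32 := key_ent15 M (mu 35) (h 35 (by norm_num)) 4 0 1 0 0 0 0 0 0 0 0 0 1 1
      (by decide +kernel) (by decide +kernel) (by decide +kernel) (by decide +kernel)
      (by decide +kernel) (by decide +kernel) (by decide +kernel) (by decide +kernel)
      (by decide +kernel) (by decide +kernel) (by decide +kernel) (by decide +kernel)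
  have e34 := key_ent15 M (mu 35) (h 35 (by norm_num)) 4 2 0 0 1 0 0 0 0 0 0 0 1 1
      (by decide +kernel) (by decide +kernel) (by decide +kernel) (by decide +kernel)
      (by decide +kernel) (by decide +kernel) (by decide +kernel) (by decide +kernel)
      (by decide +kernel) (by decide +kernel) (by decide +kernel) (by decide +kernel)
  have e35 := key_ent15 M (mu 35) (h 35 (by norm_num)) 4 3 0 0 0 1 0 0 0 0 0 0 1 1
      (by decide +kernel) (by decide +kernel) (by decide +kernel) (by decide +kernel)
      (by decide +kernel) (by decide +kernel) (by decide +kernel) (by decide +kernel)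
      (by decide +kernel) (by decide +kernel) (by decide +kernel) (by decide +kernel)
  have e36 := key_ent15 M (mu 35) (h 35 (by norm_num)) 4 4 0 0 0 0 1 0 0 0 0 0 1 1
      (by decide +kernel) (by decide +kernel) (by decide +kernel) (by decide +kernel)
      (by decide +kernel) (by decide +kernel) (by decide +kernel) (by decide +kernel)
      (by decide +kernel) (by decide +kernel) (by decide +kernel) (by decide +kernel)
  have e41 := key_ent15 M (mu 96) (h 96 (by norm_num)) 0 5 0 0 0 1 0 1 1 0 0 0 0 0
      (by decide +kernel) (by decide +kernel) (by decide +kernel) (by decide +kernel)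
      (by decide +kernel) (by decide +kernel) (by decide +kernel) (by decide +kernel)
      (by decide +kernel) (by decide +kernel) (by decide +kernel) (by decide +kernel)
  have e44 := key_ent15 M (mu 96) (h 96 (by norm_num)) 2 0 1 0 1 0 0 0 1 0 1 0 0 0
      (by decide +kernel) (by decide +kernel) (by decide +kernel) (by decide +kernel)
      (by decide +kernel) (by decide +kernel) (by decide +kernel) (by decide +kernel)
      (by decide +kernel) (by decide +kernel) (by decide +kernel) (by decide +kernel)
  have e51 := key_ent15 M (mu 96) (h 96 (by norm_num)) 3 1 0 1 0 0 0 0 0 0 0 1 0 1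
      (by decide +kernel) (by decide +kernel) (by decide +kernel) (by decide +kernel)
      (by decide +kernel) (by decide +kernel) (by decide +kernel) (by decide +kernel)
      (by decide +kernel) (by decide +kernel) (by decide +kernel) (by decide +kernel)
  have e55 := key_ent15 M (mu 96) (h 96 (by norm_num)) 3 5 0 0 0 1 0 1 0 0 0 1 0 1
      (by decide +kernel) (by decide +kernel) (by decide +kernel) (by decide +kernel)
      (by decide +kernel) (by decide +kernel) (by decide +kernel) (by decide +kernel)
      (by decide +kernel) (by decide +kernel) (by decide +kernel) (by decide +kernel)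
  have e56 := key_ent15 M (mu 96) (h 96 (by norm_num)) 4 0 1 0 1 0 0 0 0 0 0 0 1 0
      (by decide +kernel) (by decide +kernel) (by decide +kernel) (by decide +kernel)
      (by decide +kernel) (by decide +kernel) (by decide +kernel) (by decide +kernel)
      (by decide +kernel) (by decide +kernel) (by decide +kernel) (by decide +kernel)
  have e65 := key_ent15 M (mu 56) (h 56 (by norm_num)) 0 5 0 0 0 0 0 1 1 1 0 0 0 0
      (by decide +kernel) (by decide +kernel) (by decide +kernel) (by decide +kernel)
      (by decide +kernel) (by decide +kernel) (by decide +kernel) (by decide +kernel)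
      (by decide +kernel) (by decide +kernel) (by decide +kernel) (by decide +kernel)
  have e69 := key_ent15 M (mu 56) (h 56 (by norm_num)) 2 3 0 0 0 1 1 0 0 0 1 0 0 0
      (by decide +kernel) (by decide +kernel) (by decide +kernel) (by decide +kernel)
      (by decide +kernel) (by decide +kernel) (by decide +kernel) (by decide +kernel)
      (by decide +kernel) (by decide +kernel) (by decide +kernel) (by decide +kernel)
  have e70 := key_ent15 M (mu 56) (h 56 (by norm_num)) 3 1 1 1 0 0 0 0 0 0 0 1 0 0
      (by decide +kernel) (by decide +kernel) (by decide +kernel) (by decide +kernel)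
      (by decide +kernel) (by decide +kernel) (by decide +kernel) (by decide +kernel)
      (by decide +kernel) (by decide +kernel) (by decide +kernel) (by decide +kernel)
  have e125 := key_ent15 M (mu 121) (h 121 (by norm_num)) 0 5 1 0 0 0 1 1 1 0 1 0 0 1
      (by decide +kernel) (by decide +kernel) (by decide +kernel) (by decide +kernel)
      (by decide +kernel) (by decide +kernel) (by decide +kernel) (by decide +kernel)
      (by decide +kernel) (by decide +kernel) (by decide +kernel) (by decide +kernel)
  have h00 : M 0 0 = M 5 5 := by
    linear_combination e7 + e21 + e125 + ((-1) * M 0 4 + M 2 5) * h2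
  have h01 : M 0 1 = 0 := by
    linear_combination e0
  have h02 : M 0 2 = 0 := by
    linear_combination e20
  have h03 : M 0 3 = 0 := by
    linear_combination e41
  have h04 : M 0 4 = 0 := by
    linear_combination e21
  have h05 : M 0 5 = 0 := by
    linear_combination e1
  have h10 : M 1 0 = 0 := by
    linear_combination e24 + (M 1 0) * h2
  have h11 : M 1 1 = M 5 5 := by
    linear_combination e4 + e7 + e21 + e44 + e125 + ((-1) * M 0 4 + M 2 5) * h2
  have h12 : M 1 2 = 0 := by
    linear_combination e22
  have h13 : M 1 3 = 0 := by
    linear_combination e27 + (M 1 3) * h2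
  have h14 : M 1 4 = 0 := by
    linear_combination e23
  have h15 : M 1 5 = 0 := by
    linear_combination e65 + (M 1 5) * h2
  have h20 : M 2 0 = 0 := by
    linear_combination e2 + (M 2 0) * h2
  have h21 : M 2 1 = 0 := by
    linear_combination e3 + (M 2 1) * h2
  have h22 : M 2 2 = M 5 5 := by
    linear_combination e7 + e21 + e44 + e125 + ((-1) * M 0 4 + M 2 5) * h2
  have h23 : M 2 3 = 0 := by
    linear_combination e5 + (M 2 3) * h2
  have h24 : M 2 4 = 0 := by
    linear_combination e69
  have h25 : M 2 5 = 0 := by
    linear_combination e7 + (M 2 5) * h2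
  have h30 : M 3 0 = 0 := by
    linear_combination e70
  have h31 : M 3 1 = 0 := by
    linear_combination e10
  have h32 : M 3 2 = 0 := by
    linear_combination e30
  have h33 : M 3 3 = M 5 5 := by
    linear_combination e55
  have h34 : M 3 4 = 0 := by
    linear_combination e31
  have h35 : M 3 5 = 0 := by
    linear_combination e11
  have h40 : M 4 0 = 0 := by
    linear_combination e14 + (M 4 0) * h2
  have h41 : M 4 1 = 0 := by
    linear_combination e12
  have h42 : M 4 2 = 0 := by
    linear_combination e56
  have h43 : M 4 3 = 0 := by
    linear_combination e17 + (M 4 3) * h2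
  have h44 : M 4 4 = M 5 5 := by
    linear_combination e18 + (M 4 4 + (-1) * M 5 5) * h2
  have h45 : M 4 5 = 0 := by
    linear_combination e13
  have h50 : M 5 0 = 0 := by
    linear_combination e32 + (M 5 0) * h2
  have h51 : M 5 1 = 0 := by
    linear_combination e51 + (M 5 1) * h2
  have h52 : M 5 2 = 0 := by
    linear_combination e34 + (M 5 2) * h2
  have h53 : M 5 3 = 0 := by
    linear_combination e35 + (M 5 3) * h2
  have h54 : M 5 4 = 0 := by
    linear_combination e36 + (M 5 4) * h2
  have H : ∀ i j : Fin 6, M i j = if i = j then M 5 5 else 0 := by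
    intro i j
    fin_cases i <;> fin_cases j
    · exact h00
    · exact h01
    · exact h02
    · exact h03
    · exact h04
    · exact h05
    · exact h10
    · exact h11
    · exact h12
    · exact h13
    · exact h14
    · exact h15
    · exact h20
    · exact h21
    · exact h22
    · exact h23
    · exact h24
    · exact h25
    · exact h30
    · exact h31
    · exact h32
    · exact h33
    · exact h34
    · exact h35
    · exact h40
    · exact h41
    · exact h42
    · exact h43
    · exact h44
    · exact h45
    · exact h50
    · exact h51
    · exact h52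
    · exact h53
    · exact h54
    · rfl
  obtain ⟨l, hl⟩ : ∃ l : K4, M = l • (1 : Matrix (Fin 6) (Fin 6) K4) := by
    refine ⟨M 5 5, ?_⟩
    ext i j
    rw [H i j, Matrix.smul_apply, Matrix.one_apply, smul_eq_mul, mul_ite, mul_one, mul_zero]
  subst hl
  have h1 : l * l = 1 := by
    have e := congrFun (congrFun hJ 0) 3
    rw [Matrix.transpose_smul, Matrix.transpose_one, Matrix.smul_mul, Matrix.one_mul,
      Matrix.mul_smul, Matrix.mul_one, smul_smul, Matrix.smul_apply, smul_eq_mul] at e
    have e3 : Jm 0 3 = 1 := rfl
    rw [e3, mul_one] at e
    exact e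
  rw [Cfsg.Agent.H94.HS.F4.sq_eq_one l h1, one_smul]

example : Cfsg.Agent.H9.XP.StCentJ := centJ

end Cfsg.Agent.H15.XP

#print axioms Cfsg.Agent.H15.XP.centJ
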