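import Mathlib
import Cfsg.Agent.H9.XPDefs

/-!
# XP-INJ (helper15, for helper9's S5746 project XP)

The 315 matrices `mu k` are pairwise distinct: the encoder `enc15` (two bits per entry) recovers
the code `muCode.getD k 0` from `mu k`, and the 315 codes are distinct.
-/

set_option autoImplicit false
set_option maxRecDepth 100000

namespace Cfsg.Agent.H15.XP

open Cfsg.Agent.H9.PG Cfsg.Agent.H9.XP
open Cfsg.Agent.H94.HS (F4)

/-- the two-bit code of an element of `K4` -/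
def cd15 : K4 → ℕ
  | F4.z => 0
  | F4.o => 1
  | F4.w => 2
  | F4.v => 3

/-- the code of a matrix -/
def enc15 (M : Matrix (Fin 6) (Fin 6) K4) : ℕ :=
  (cd15 (M 0 0) <<< 0) +
    (cd15 (M 0 1) <<< 2) +
    (cd15 (M 0 2) <<< 4) +
    (cd15 (M 0 3) <<< 6) +
    (cd15 (M 0 4) <<< 8) +
    (cd15 (M 0 5) <<< 10) +
    (cd15 (M 1 0) <<< 12) +
    (cd15 (M 1 1) <<< 14) +
    (cd15 (M 1 2) <<< 16) +
    (cd15 (M 1 3) <<< 18) +
    (cd15 (M 1 4) <<< 20) +
    (cd15 (M 1 5) <<< 22) +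
    (cd15 (M 2 0) <<< 24) +
    (cd15 (M 2 1) <<< 26) +
    (cd15 (M 2 2) <<< 28) +
    (cd15 (M 2 3) <<< 30) +
    (cd15 (M 2 4) <<< 32) +
    (cd15 (M 2 5) <<< 34) +
    (cd15 (M 3 0) <<< 36) +
    (cd15 (M 3 1) <<< 38) +
    (cd15 (M 3 2) <<< 40) +
    (cd15 (M 3 3) <<< 42) +
    (cd15 (M 3 4) <<< 44) +
    (cd15 (M 3 5) <<< 46) +
    (cd15 (M 4 0) <<< 48) +
    (cd15 (M 4 1) <<< 50) +
    (cd15 (M 4 2) <<< 52) +
    (cd15 (M 4 3) <<< 54) +
    (cd15 (M 4 4) <<< 56) +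
    (cd15 (M 4 5) <<< 58) +
    (cd15 (M 5 0) <<< 60) +
    (cd15 (M 5 1) <<< 62) +
    (cd15 (M 5 2) <<< 64) +
    (cd15 (M 5 3) <<< 66) +
    (cd15 (M 5 4) <<< 68) +
    (cd15 (M 5 5) <<< 70)

theorem enc15_mu : ∀ k : ℕ, k < 315 → enc15 (mu k) = muCode.getD k 0 := by decide +kernel

theorem muCode_nodup15 : muCode.Nodup := by decide +kernel

theorem muCode_length15 : muCode.length = 315 := by decide +kernel

/-- XP-INJ -/
theorem inj : StInj := by
  intro j hj k hk h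
  have e := congrArg enc15 h
  rw [enc15_mu j hj, enc15_mu k hk] at e
  have hj' : j < muCode.length := by rw [muCode_length15]; exact hj
  have hk' : k < muCode.length := by rw [muCode_length15]; exact hk
  rw [List.getD_eq_getElem _ _ hj', List.getD_eq_getElem _ _ hk'] at e
  exact (List.Nodup.getElem_inj_iff muCode_nodup15).mp e

example : Cfsg.Agent.H9.XP.StInj := inj

end Cfsg.Agent.H15.XP

#print axioms Cfsg.Agent.H15.XP.inj
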